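import Cfsg.Agent.H70.CHZ.Identify
import Cfsg.Agent.H51.Basic
import Cfsg.Agent.H51.FStar
import Cfsg.Prelude.Def_Local

/-! The setting of `Base` from hypotheses with `C(z)/F*(C(z))` the equal-sign part of `S₃ × S₆`. -/

set_option autoImplicit false

namespace Cfsg.Agent.H70.CHZ

open Cfsg.Agent.H18

/-- The pairs of equal sign. -/
abbrev diagP36 : Subgroup P36 :=
  MonoidHom.ker (Equiv.Perm.sign.comp (MonoidHom.fst (Equiv.Perm (Fin 3)) (Equiv.Perm (Fin 6))) *
    Equiv.Perm.sign.comp (MonoidHom.snd (Equiv.Perm (Fin 3)) (Equiv.Perm (Fin 6))))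

theorem mem_diagP36 {p : P36} : p ∈ diagP36 ↔ Equiv.Perm.sign p.1 = Equiv.Perm.sign p.2 := by
  rw [MonoidHom.mem_ker]
  show Equiv.Perm.sign p.1 * Equiv.Perm.sign p.2 = 1 ↔ _
  rw [mul_eq_one_iff_eq_inv, Int.units_inv_eq_self]

/-- The setting from `Q = F*(C(z))` extraspecial of order `2⁹` with the diagonal quotient. -/
theorem exists_base_diag {G : Type*} [Group G] [Finite G] (z : G) (hz : orderOf z = 2)
    [hn : (Cfsg.generalizedFittingSubgroup ↥(Subgroup.centralizer ({z} : Set G))).Normal]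
    (hQ : Cfsg.IsExtraspecial 2 ↥(Cfsg.generalizedFittingSubgroup ↥(Subgroup.centralizer ({z} : Set G))))
    (hQ9 : Nat.card ↥(Cfsg.generalizedFittingSubgroup ↥(Subgroup.centralizer ({z} : Set G))) = 2 ^ 9)
    (e : (↥(Subgroup.centralizer ({z} : Set G)) ⧸
      Cfsg.generalizedFittingSubgroup ↥(Subgroup.centralizer ({z} : Set G))) ≃* ↥diagP36) :
    ∃ π : G → P36, Base z
      ((Cfsg.pCore 2 ↥(Subgroup.centralizer ({z} : Set G))).map
        (Subgroup.centralizer ({z} : Set G)).subtype) π ∧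
      ∀ p : P36, Equiv.Perm.sign p.1 = Equiv.Perm.sign p.2 → ∃ a : G, a * z = z * a ∧ π a = p := by
  classical
  have : Fact (Nat.Prime 2) := ⟨Nat.prime_two⟩
  set M := Subgroup.centralizer ({z} : Set G) with hM
  set W := Cfsg.generalizedFittingSubgroup ↥M with hW
  set Qm := Cfsg.pCore 2 ↥M with hQm
  have hWQ : W = Qm := by
    refine le_antisymm (H18.le_pCore hn hQ.1.1) ?_
    exact (H51.pCore_le_fittingSubgroup 2 ↥M).trans le_sup_right
  have hzM : z ∈ M := Subgroup.mem_centralizer_singleton_iff.2 rfl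
  set F := Qm.map M.subtype with hF
  have hzW : (⟨z, hzM⟩ : ↥M) ∈ W := by
    refine H51.centralizer_generalizedFitting_le ↥M (Subgroup.mem_centralizer_iff.2 fun q _ => ?_)
    exact Subtype.ext (Subgroup.mem_centralizer_singleton_iff.1 q.2)
  have hcard : Nat.card ↥F = 512 := by
    rw [hF, ← hWQ, Subgroup.card_map_of_injective M.subtype_injective, hQ9]; norm_num
  have hC : Subgroup.centralizer (F : Set G) ≤ F := fun y hy => by
    have hyM : y ∈ M := Subgroup.mem_centralizer_singleton_iff.2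
      (Subgroup.mem_centralizer_iff.1 hy z ⟨_, hWQ ▸ hzW, rfl⟩).symm
    refine ⟨⟨y, hyM⟩, hWQ ▸ H51.centralizer_generalizedFitting_le ↥M
      (Subgroup.mem_centralizer_iff.2 fun q hq => Subtype.ext ?_), rfl⟩
    exact Subgroup.mem_centralizer_iff.1 hy q ⟨q, hWQ ▸ hq, rfl⟩
  have hFE : Cfsg.IsExtraspecial 2 ↥F := by
    have := exists_base.isExtraspecial_equiv (W.equivMapOfInjective M.subtype M.subtype_injective) hQ
    rwa [hWQ] at this
  obtain ⟨hsing, hcore⟩ := singPt_of_pCore z hz F rfl hFE hC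
  let φ : ↥M →* P36 := diagP36.subtype.comp (e.toMonoidHom.comp (QuotientGroup.mk' W))
  have hker : φ.ker = Qm := by
    rw [← hWQ]
    ext a
    rw [MonoidHom.mem_ker, MonoidHom.comp_apply, map_eq_one_iff _ diagP36.subtype_injective,
      MonoidHom.comp_apply]
    exact (map_eq_one_iff e e.injective).trans (QuotientGroup.eq_one_iff a)
  let f : G → P36 := fun a => if ha : a ∈ M then φ ⟨a, ha⟩ else 1
  have hf : ∀ a : ↥M, f a = φ a := fun a => dif_pos a.2
  have hmem : ∀ {a : G}, a * z = z * a → a ∈ M := fun ha =>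
    Subgroup.mem_centralizer_singleton_iff.2 ha
  have hdiag : ∀ p : P36, Equiv.Perm.sign p.1 = Equiv.Perm.sign p.2 →
      ∃ a : G, a * z = z * a ∧ f a = p := by
    intro p hp
    obtain ⟨a, ha⟩ := QuotientGroup.mk'_surjective W (e.symm ⟨p, mem_diagP36.2 hp⟩)
    refine ⟨a, Subgroup.mem_centralizer_singleton_iff.1 a.2, ?_⟩
    rw [hf a]
    show ((e (QuotientGroup.mk' W a) : ↥diagP36) : P36) = p
    rw [ha, e.apply_symm_apply]
  refine ⟨f, ⟨hsing, hcore, hcard, fun a b ha hb => ?_, fun a ha => ?_,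
    fun p h1 h2 => hdiag p (h1.trans h2.symm)⟩, hdiag⟩
  · rw [hf ⟨a, hmem ha⟩, hf ⟨b, hmem hb⟩, ← map_mul, ← hf]
    rfl
  · rw [hf ⟨a, hmem ha⟩, ← MonoidHom.mem_ker, hker]
    exact ⟨fun h1 => ⟨_, h1, rfl⟩, fun ⟨q, hq, he⟩ => by
      have : q = ⟨a, hmem ha⟩ := Subtype.ext he
      rwa [← this]⟩

end Cfsg.Agent.H70.CHZ
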