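import Cfsg.Agent.H70.CHZ.DiagSpace

/-!
# Coordinates from a vector fixed by the duad stabiliser: five-elements without fixed vectors force
the pentagon and triangle relations on the fifteen translates.
-/

set_option autoImplicit false
set_option linter.unusedSectionVars false
set_option synthInstance.maxSize 2000

namespace Cfsg.Agent.H70.CHZ.Diag

open Equiv

variable {V : Type*} [AddCommGroup V]

/-- Scalars from the field with two elements. -/
def sm (e : ZMod 2) (x : V) : V := if e = 0 then 0 else x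

theorem sm_zero (x : V) : sm 0 x = 0 := if_pos rfl

theorem sm_one (x : V) : sm 1 x = x := if_neg one_ne_zero

theorem map_sm {W : Type*} [AddCommGroup W] (f : V →+ W) (e : ZMod 2) (x : V) :
    f (sm e x) = sm e (f x) := by
  unfold sm
  split_ifs
  · exact map_zero f
  · rfl

/-- A translate of `v` attached to a duad. -/
def dd (R : Perm (Fin 6) → V →+ V) (v : V) (i j : Fin 6) : V :=
  if i = j then 0 else R (gD i j) v

namespace Act

variable {q : V → ZMod 2} {B : V → V → ZMod 2} {c : V →+ V} {R : Perm (Fin 6) → V →+ V}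
variable (h : Act q B c R)
include h

theorem sm_add (e e' : ZMod 2) (x : V) : sm (e + e') x = sm e x + sm e' x := by
  rcases ToTensor.zmod2_cases e with rfl | rfl <;> rcases ToTensor.zmod2_cases e' with rfl | rfl
  · simp [sm]
  · simp [sm]
  · simp [sm]
  · rw [ToTensor.zmod2_add_self, sm_zero, sm_one, h.two]

theorem sm_add_right (e : ZMod 2) (x y : V) : sm e (x + y) = sm e x + sm e y := by
  unfold sm
  split_ifs
  · rw [add_zero]
  · rfl

variable {v : V} (hv : ∀ g ∈ [a1, a2, tt, ea], R g v = v)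
include hv

/-- Any even permutation sending `{4, 5}` to `{i, j}` sends `v` to the translate. -/
theorem dd_eq {g : Perm (Fin 6)} (hg : Perm.sign g = 1) {i j : Fin 6} (hij : i ≠ j)
    (hg45 : (g 4 = i ∧ g 5 = j) ∨ (g 4 = j ∧ g 5 = i)) : R g v = dd R v i j := by
  obtain ⟨hs, hk⟩ := gD_spec i j
  obtain ⟨h4, h5⟩ := hk hij
  rw [dd, if_neg hij]
  have hsk : Perm.sign ((gD i j)⁻¹ * g) = 1 := by rw [map_mul, map_inv, hs, hg]; rfl
  have hmem : (gD i j)⁻¹ * g ∈ stabList := by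
    refine mem_stabList _ hsk ?_
    have e4 : (gD i j)⁻¹ i = 4 := by rw [Perm.inv_eq_iff_eq, h4]
    have e5 : (gD i j)⁻¹ j = 5 := by rw [Perm.inv_eq_iff_eq, h5]
    rcases hg45 with ⟨g4, g5⟩ | ⟨g4, g5⟩
    · exact Or.inl ⟨by rw [Perm.mul_apply, g4, e4], by rw [Perm.mul_apply, g5, e5]⟩
    · exact Or.inr ⟨by rw [Perm.mul_apply, g4, e5], by rw [Perm.mul_apply, g5, e4]⟩
  calc R g v = R (gD i j * ((gD i j)⁻¹ * g)) v := by rw [mul_inv_cancel_left]
    _ = R (gD i j) (R ((gD i j)⁻¹ * g) v) := h.R_mul _ _ hs hsk v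
    _ = R (gD i j) v := by rw [(h.fix_stabList hv _ hmem).1]

theorem dd_symm (i j : Fin 6) : dd R v i j = dd R v j i := by
  by_cases hij : i = j
  · rw [hij]
  · obtain ⟨hs, hk⟩ := gD_spec i j
    obtain ⟨h4, h5⟩ := hk hij
    rw [← h.dd_eq hv hs hij (Or.inl ⟨h4, h5⟩)]
    exact h.dd_eq hv hs (Ne.symm hij) (Or.inr ⟨h4, h5⟩)

theorem R_dd {g : Perm (Fin 6)} (hg : Perm.sign g = 1) (i j : Fin 6) :
    R g (dd R v i j) = dd R v (g i) (g j) := by
  by_cases hij : i = j
  · rw [dd, dd, if_pos hij, if_pos (congrArg g hij), map_zero]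
  · obtain ⟨hs, hk⟩ := gD_spec i j
    obtain ⟨h4, h5⟩ := hk hij
    rw [← h.dd_eq hv hs hij (Or.inl ⟨h4, h5⟩), ← h.R_mul g _ hg hs]
    exact h.dd_eq hv (by rw [map_mul, hg, hs, one_mul]) (g.injective.ne hij)
      (Or.inl ⟨by rw [Perm.mul_apply, h4], by rw [Perm.mul_apply, h5]⟩)

/-- The pentagon relation. -/
theorem pentagon (k : Perm (Fin 6)) :
    dd R v (k 0) (k 1) + dd R v (k 1) (k 2) + dd R v (k 2) (k 3) + dd R v (k 3) (k 4)
      + dd R v (k 4) (k 0) = 0 := by
  set f := k * f5 * k⁻¹ with hf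
  have hs : Perm.sign f = 1 := by
    rw [hf, map_mul, map_mul, map_inv, five_product.1, mul_one, mul_inv_cancel]
  have hfk : ∀ i, f (k i) = k (f5 i) := fun i => by simp [hf]
  have hv' : f5 0 = 1 ∧ f5 1 = 2 ∧ f5 2 = 3 ∧ f5 3 = 4 ∧ f5 4 = 0 := by decide +kernel
  obtain ⟨e0, e1, e2, e3, e4⟩ := hv'
  refine h.five_fpf hs (by rw [hf, conj_pow, pow_gens.2.2.1]; group)
    (fun e => pow_gens.2.2.2 (conj_eq_one_iff.1 e)) ?_
  simp only [map_add, h.R_dd hv hs, hfk, e0, e1, e2, e3, e4]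
  abel

/-- The triangle relation. -/
theorem triangle {a b c : Fin 6} (hab : a ≠ b) (hac : a ≠ c) (hbc : b ≠ c) :
    dd R v a b + dd R v b c + dd R v c a = 0 := by
  obtain ⟨h0, h3, h4⟩ := triP_spec a b c hab hac hbc
  set k := triP a b c
  have p1 := h.pentagon hv k
  have p2 := h.pentagon hv (k * swap 1 4)
  have p3 := h.pentagon hv (k * (swap 1 4 * swap 4 3))
  have q2 : swap (1 : Fin 6) 4 0 = 0 ∧ swap (1 : Fin 6) 4 1 = 4 ∧ swap (1 : Fin 6) 4 2 = 2 ∧
      swap (1 : Fin 6) 4 3 = 3 ∧ swap (1 : Fin 6) 4 4 = 1 := by decide +kernel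
  have q3 : (swap 1 4 * swap 4 3 : Perm (Fin 6)) 0 = 0 ∧ (swap 1 4 * swap 4 3 : Perm (Fin 6)) 1 = 4 ∧
      (swap 1 4 * swap 4 3 : Perm (Fin 6)) 2 = 2 ∧ (swap 1 4 * swap 4 3 : Perm (Fin 6)) 3 = 1 ∧
      (swap 1 4 * swap 4 3 : Perm (Fin 6)) 4 = 3 := by decide +kernel
  rw [Perm.mul_apply k, Perm.mul_apply k, Perm.mul_apply k, Perm.mul_apply k, Perm.mul_apply k,
    q2.1, q2.2.1, q2.2.2.1, q2.2.2.2.1, q2.2.2.2.2] at p2
  rw [Perm.mul_apply k, Perm.mul_apply k, Perm.mul_apply k, Perm.mul_apply k, Perm.mul_apply k,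
    q3.1, q3.2.1, q3.2.2.1, q3.2.2.2.1, q3.2.2.2.2] at p3
  rw [h.dd_symm hv (k 0) (k 4), h.dd_symm hv (k 1) (k 0), h.dd_symm hv (k 3) (k 1)] at p2
  rw [h.dd_symm hv (k 0) (k 4), h.dd_symm hv (k 2) (k 1)] at p3
  rw [← h0, ← h3, ← h4, h.dd_symm hv (k 0) (k 3)]
  linear_combination (norm := abel) p1 + p2 + p3 - h.two (dd R v (k 0) (k 1))
    - h.two (dd R v (k 1) (k 2)) - h.two (dd R v (k 2) (k 3)) - h.two (dd R v (k 4) (k 0))
    - h.two (dd R v (k 4) (k 2)) - h.two (dd R v (k 1) (k 3))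

theorem dd_pot (i j : Fin 6) (hij : i ≠ j) : dd R v i j = dd R v 0 i + dd R v 0 j := by
  by_cases hi : i = 0
  · subst hi
    rw [show dd R v (0 : Fin 6) 0 = 0 from if_pos rfl, zero_add]
  by_cases hj : j = 0
  · subst hj
    rw [show dd R v (0 : Fin 6) 0 = 0 from if_pos rfl, add_zero, h.dd_symm hv]
  have ht := h.triangle hv (Ne.symm hi) (Ne.symm hj) hij
  rw [h.dd_symm hv j 0] at ht
  linear_combination (norm := abel) ht - h.two (dd R v 0 i) - h.two (dd R v 0 j)

theorem R_pot {g : Perm (Fin 6)} (hg : Perm.sign g = 1) (k : Fin 6) :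
    R g (dd R v 0 k) = dd R v 0 (g k) + dd R v 0 (g 0) := by
  rw [h.R_dd hv hg]
  by_cases hk : g 0 = g k
  · rw [dd, if_pos hk, ← hk, h.two]
  · rw [h.dd_pot hv _ _ hk, add_comm]

theorem sum_pot : ∑ k : Fin 6, dd R v 0 k = 0 := by
  refine h.five_fpf five_product.1 pow_gens.2.2.1 pow_gens.2.2.2 ?_
  rw [map_sum, Finset.sum_congr rfl fun k _ => h.R_pot hv five_product.1 k, Finset.sum_add_distrib,
    Equiv.sum_comp f5 (fun k => dd R v 0 k), Fin.sum_univ_six (fun _ : Fin 6 => dd R v 0 (f5 0))]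
  linear_combination (norm := abel) h.two (dd R v 0 (f5 0)) + h.two (dd R v 0 (f5 0))
    + h.two (dd R v 0 (f5 0))

/-- The equivariant embedding of the natural module. -/
theorem exists_psi : ∃ ψ : W4 →+ V, ψ w45 = v ∧
    ∀ g, Perm.sign g = 1 → ∀ w, ψ (wAct g w) = R g (ψ w) := by
  classical
  let ψ : W4 →+ V := AddMonoidHom.mk' (fun w => ∑ k : Fin 6, sm (wLift w k) (dd R v 0 k))
    fun a b => by
      rw [← Finset.sum_add_distrib]
      exact Finset.sum_congr rfl fun k _ => by rw [wLift_add, h.sm_add]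
  have hred : ∀ x : Fin 6 → ZMod 2, ∑ i, x i = 0 →
      ψ (wRed x) = ∑ k : Fin 6, sm (x k) (dd R v 0 k) := by
    intro x hx
    show ∑ k : Fin 6, sm (wLift (wRed x) k) (dd R v 0 k) = _
    rw [Finset.sum_congr rfl fun k _ => by rw [wLift_wRed x hx k, h.sm_add],
      Finset.sum_add_distrib]
    have h5 : ∑ k : Fin 6, sm (x 5) (dd R v 0 k) = 0 := by
      rcases ToTensor.zmod2_cases (x 5) with e | e
      · rw [e]; exact Finset.sum_eq_zero fun k _ => sm_zero _
      · rw [e]; simp only [sm_one]; exact h.sum_pot hv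
    rw [h5, add_zero]
  refine ⟨ψ, ?_, fun g hg w => ?_⟩
  · rw [w45, hred _ (by decide)]
    rw [Fin.sum_univ_six]
    have e45 : dd R v 4 5 = v := by
      rw [← h.dd_eq hv (g := 1) (i := 4) (j := 5) (map_one _) (by decide) (Or.inl ⟨rfl, rfl⟩),
        h.R_one]
    conv_rhs => rw [← e45, h.dd_pot hv 4 5 (by decide)]
    simp [sm]
  · have hs : ∑ i, wLift w (g⁻¹ i) = 0 := (Equiv.sum_comp g⁻¹ (wLift w)).trans (wLift_sum w)
    rw [wAct, hred _ hs]
    show _ = R g (∑ k : Fin 6, sm (wLift w k) (dd R v 0 k))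
    rw [map_sum, Finset.sum_congr rfl (fun k _ => by rw [map_sm, h.R_pot hv hg, h.sm_add_right] :
      ∀ k ∈ Finset.univ, R g (sm (wLift w k) (dd R v 0 k)) =
        sm (wLift w k) (dd R v 0 (g k)) + sm (wLift w k) (dd R v 0 (g 0))),
      Finset.sum_add_distrib]
    have h0 : ∑ k : Fin 6, sm (wLift w k) (dd R v 0 (g 0)) = 0 := by
      have hhom : ∀ (s : Finset (Fin 6)), ∑ k ∈ s, sm (wLift w k) (dd R v 0 (g 0)) =
          sm (∑ k ∈ s, wLift w k) (dd R v 0 (g 0)) := by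
        intro s
        induction s using Finset.induction with
        | empty => simp [sm]
        | insert a s ha ih => rw [Finset.sum_insert ha, Finset.sum_insert ha, ih, h.sm_add]
      rw [hhom, wLift_sum, sm_zero]
    rw [h0, add_zero, ← Equiv.sum_comp g (fun i => sm (wLift w (g⁻¹ i)) (dd R v 0 i))]
    simp

/-- Coordinates. -/
theorem exists_coords (hv0 : v ≠ 0) : ∃ Φ : V ≃+ V8,
    (∀ x, q x = vq (Φ x)) ∧ (∀ x y, B x y = vB (Φ x) (Φ y)) ∧ Φ v = (w45, 0) ∧
    (∀ x, Φ (c x) = ((Φ x).2, (Φ x).1 + (Φ x).2)) ∧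
    ∀ g, Perm.sign g = 1 → ∀ x, Φ (R g x) = vAct (1, g) (Φ x) := by
  classical
  have := h.finite
  obtain ⟨ψ, hψv, hψR⟩ := h.exists_psi hv
  have hinv0 : ∀ g, Perm.sign g = 1 → ∀ w, ψ w = 0 → ψ (wAct g w) = 0 := fun g hg w hw => by
    rw [hψR g hg, hw, map_zero]
  have hinj : Function.Injective ψ := by
    rw [injective_iff_map_eq_zero]
    intro w hw
    by_contra hw0
    refine hv0 (hψv ▸ ?_)
    exact wAct_invariant_set (S := {u | ψ u = 0}) (fun g hg u hu => hinv0 g hg u hu) hw hw0 w45_ne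
  have hdisj : ∀ a b, ψ a = c (ψ b) → b = 0 := by
    intro a b hab
    by_contra hb
    have hmem : w45 ∈ {u : W4 | ∃ a', ψ a' = c (ψ u)} := by
      refine wAct_invariant_set (fun g hg u hu => ?_)
        (show b ∈ {u : W4 | ∃ a', ψ a' = c (ψ u)} from ⟨a, hab⟩) hb w45_ne
      obtain ⟨a', ha'⟩ := hu
      exact ⟨wAct g a', by rw [hψR g hg, ha', h.R_c g hg, hψR g hg]⟩
    obtain ⟨a', ha'⟩ := hmem
    rw [hψv] at ha'
    have hfix : ∀ g ∈ [a1, a2, tt, ea], wAct g a' = a' := by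
      intro g hg
      have hgs : Perm.sign g = 1 := sign_gens g (by simp at hg ⊢; tauto)
      exact hinj (by rw [hψR g hgs, ha', h.R_c g hgs, hv g hg])
    rcases fixed_w45 a' hfix with e | e <;> rw [e] at ha'
    · rw [map_zero] at ha'
      exact hv0 (by rw [← h.c_three v, ← ha', map_zero, map_zero])
    · rw [hψv] at ha'
      exact hv0 (h.c_fix ha'.symm)
  let K : V8 →+ V := AddMonoidHom.mk' (fun p => ψ p.1 + c (ψ p.2)) fun p p' => by
    simp only [Prod.fst_add, Prod.snd_add, map_add]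
    abel
  have hK : Function.Bijective K := by
    refine (Nat.bijective_iff_injective_and_card K).2 ⟨?_, by
      rw [h.card]; simp⟩
    rw [injective_iff_map_eq_zero]
    intro p (hp : ψ p.1 + c (ψ p.2) = 0)
    have h2 := hdisj _ _ (h.eq_of_add hp)
    rw [h2, map_zero, map_zero, add_zero] at hp
    exact Prod.ext (hinj (hp.trans (map_zero ψ).symm)) h2
  -- `q` vanishes on the image of the natural module
  have hqψ : ∀ w, q (ψ w) = 0 := by
    have hconst : ∀ w, w ≠ 0 → q (ψ w) = q v := by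
      intro w hw
      obtain ⟨g, hg, rfl⟩ := wAct_transitive w45_ne hw
      rw [hψR g hg, hψv, h.q_R g hg]
    have hcard : Nat.card ψ.range = 16 := by
      rw [← Nat.card_congr (AddMonoidHom.ofInjective hinj).toEquiv]
      simp
    have hqv := h.const_zero ψ.range (by omega) (q v) (by
      rintro _ ⟨w, rfl⟩ hw
      exact hconst w fun e => hw (by rw [e, map_zero]))
    intro w
    by_cases hw : w = 0
    · rw [hw, map_zero, h.q_zero]
    · rw [hconst w hw, hqv]
  have hBψ : ∀ a b, B (ψ a) (ψ b) = 0 := fun a b => by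
    have h1 := h.q_add (ψ a) (ψ b)
    rw [← map_add, hqψ, hqψ, hqψ, zero_add, zero_add] at h1
    exact h1.symm
  let b : W4 → W4 → ZMod 2 := fun a a' => B (ψ a) (c (ψ a'))
  have hbadd : ∀ a x y, b a (x + y) = b a x + b a y := fun a x y => by
    simp only [b, map_add, h.B_add_right]
  have hbinv : ∀ g, Perm.sign g = 1 → ∀ a x, b (wAct g a) (wAct g x) = b a x := fun g hg a x => by
    simp only [b]
    rw [hψR g hg, hψR g hg, ← h.R_c g hg, h.B_map _ (h.q_R g hg)]
  have hb45 : ∀ x, b w45 x = wB w45 x := by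
    set k : W4 := (b w45 (1, 0, 0, 0), b w45 (0, 1, 0, 0), b w45 (0, 0, 1, 0), b w45 (0, 0, 0, 1))
    have hlin : ∀ x, b w45 x = lin k x := fun x => lin_eq (b w45) (hbadd w45) x
    have hfix : ∀ g ∈ [a1, a2, tt, ea], ∀ x, lin k (wAct g x) = lin k x := by
      intro g hg x
      have hgs : Perm.sign g = 1 := sign_gens g (by simp at hg ⊢; tauto)
      rw [← hlin, ← hlin]
      conv_lhs => rw [← gens_fix_w45 g hg, hbinv g hgs]
    rcases fixed_lin k hfix with e | e
    · exfalso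
      refine hv0 (h.nondeg v fun y => ?_)
      obtain ⟨p, rfl⟩ := hK.2 y
      show B v (ψ p.1 + c (ψ p.2)) = 0
      rw [h.B_add_right, ← hψv, hBψ, zero_add]
      show b w45 p.2 = 0
      rw [hlin, e]
    · intro x
      rw [hlin, e]
  have hbB : ∀ a x, b a x = wB a x := by
    intro a x
    by_cases ha : a = 0
    · subst ha
      simp only [b, map_zero, h.B_zero_left]
      simp [wB]
    · obtain ⟨g, hg, rfl⟩ := wAct_transitive w45_ne ha
      have hx : x = wAct g (wAct g⁻¹ x) := by rw [← wAct_mul, mul_inv_cancel, wAct_one]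
      rw [hx, hbinv g hg, hb45, wB_wAct]
  let E : V8 ≃+ V := AddEquiv.ofBijective K hK
  have hq : ∀ p : V8, q (K p) = vq p := fun p => by
    show q (ψ p.1 + c (ψ p.2)) = wB p.1 p.2
    rw [h.q_add, h.q_c, hqψ, hqψ, zero_add, zero_add]
    exact hbB _ _
  refine ⟨E.symm, fun x => ?_, fun x y => ?_, ?_, fun x => ?_, fun g hg x => ?_⟩
  · obtain ⟨p, rfl⟩ := E.surjective x
    rw [E.symm_apply_apply]
    exact hq p
  · obtain ⟨p, rfl⟩ := E.surjective x
    obtain ⟨p', rfl⟩ := E.surjective y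
    rw [E.symm_apply_apply, E.symm_apply_apply]
    have h1 := h.q_add (K p) (K p')
    rw [← map_add, hq, hq, hq, vq_add] at h1
    exact (add_left_cancel h1).symm
  · rw [AddEquiv.symm_apply_eq]
    show v = ψ w45 + c (ψ 0)
    rw [hψv, map_zero, map_zero, add_zero]
  · obtain ⟨p, rfl⟩ := E.surjective x
    rw [E.symm_apply_apply, AddEquiv.symm_apply_eq]
    show c (ψ p.1 + c (ψ p.2)) = ψ p.2 + c (ψ (p.1 + p.2))
    rw [map_add c, h.c_two, map_add ψ, map_add c]
    abel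
  · obtain ⟨p, rfl⟩ := E.surjective x
    rw [E.symm_apply_apply, AddEquiv.symm_apply_eq, vAct_snd]
    show R g (ψ p.1 + c (ψ p.2)) = ψ (wAct g p.1) + c (ψ (wAct g p.2))
    rw [map_add, h.R_c g hg, hψR g hg, hψR g hg]

end Act

end Cfsg.Agent.H70.CHZ.Diag
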