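import Cfsg.Agent.H70.CHZ.ModelFacts
import Cfsg.Agent.H70.CHZ.ModelFactsTwo

/-!
# Finite facts for the diagonal tensor case: the duad stabiliser in `A₆`
-/

set_option autoImplicit false
set_option synthInstance.maxSize 2000

namespace Cfsg.Agent.H70.CHZ.Diag

open Equiv

/-- `(01)(23)`. -/
def a1 : Perm (Fin 6) := swap 0 1 * swap 2 3

/-- `(02)(13)`. -/
def a2 : Perm (Fin 6) := swap 0 2 * swap 1 3

/-- `(01)(45)`. -/
def tt : Perm (Fin 6) := swap 0 1 * swap 4 5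

/-- `(012)`. -/
def ea : Perm (Fin 6) := swap 0 1 * swap 1 2

/-- `(024)(135)`. -/
def eb : Perm (Fin 6) := swap 0 2 * swap 2 4 * (swap 1 3 * swap 3 5)

/-- `(01234)`. -/
def f5 : Perm (Fin 6) := swap 0 1 * swap 1 2 * swap 2 3 * swap 3 4

theorem sign_gens : ∀ g ∈ [a1, a2, tt, ea, eb, f5], Perm.sign g = 1 := by decide +kernel

theorem pow_gens : ea * ea * ea = 1 ∧ eb * eb * eb = 1 ∧ f5 ^ 5 = 1 ∧ f5 ≠ 1 := by decide +kernel

theorem invert : tt * ea = ea * ea * tt ∧ a2 * eb = eb * eb * a2 := by decide +kernel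

theorem norm_ea : ∀ a ∈ [a1, a2], ∃ b ∈ [a1, a2, a1 * a2], a * ea = ea * b := by decide +kernel

theorem norm_eb : ∀ a ∈ [a1, tt], ∃ b ∈ [a1, tt, a1 * tt], a * eb = eb * b := by decide +kernel

theorem five_product : Perm.sign f5 = 1 ∧ (a1 * (f5 * a1 * f5⁻¹)) ^ 5 = 1 ∧
    a1 * (f5 * a1 * f5⁻¹) ≠ 1 := by decide +kernel

/-- The products spelling a group of order 24 from four generators. -/
def words (x₁ x₂ x₃ x₄ : Perm (Fin 6)) : List (Perm (Fin 6)) :=
  [1, x₁, x₂, x₁ * x₂].flatMap fun k =>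
    [1, x₄, x₄ * x₄].flatMap fun e => [k * e, k * e * x₃]

/-- The even stabiliser of `{4, 5}`, as products. -/
def stabList : List (Perm (Fin 6)) := words a1 a2 tt ea

/-- The even stabiliser of `{01 | 23 | 45}`, as products. -/
def stabList' : List (Perm (Fin 6)) := words a1 tt a2 eb

theorem mem_stabList' : ∀ g : Perm (Fin 6), Perm.sign g = 1 →
    g * (swap 0 1 * swap 2 3 * swap 4 5) = swap 0 1 * swap 2 3 * swap 4 5 * g → g ∈ stabList' := by
  decide +kernel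

theorem conj_gens : ∀ g ∈ [a1, a2, tt, ea],
    swap 0 1 * g * swap 0 1 ∈ stabList ∧ Perm.sign (swap 0 1 * g * swap 0 1) = 1 := by decide +kernel

theorem gens_duad : ∀ g ∈ [a1, a2, tt, ea], (g 4 = 4 ∧ g 5 = 5) ∨ (g 4 = 5 ∧ g 5 = 4) := by
  decide +kernel

theorem mem_stabList : ∀ g : Perm (Fin 6), Perm.sign g = 1 →
    ((g 4 = 4 ∧ g 5 = 5) ∨ (g 4 = 5 ∧ g 5 = 4)) → g ∈ stabList := by decide +kernel

/-- An even permutation sending `4, 5` to two given points. -/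
def gD (i j : Fin 6) : Perm (Fin 6) :=
  if i = j then 1
  else if Perm.sign (swap 4 i * swap 5 (swap 4 i j)) = 1 then swap 4 i * swap 5 (swap 4 i j)
  else swap 4 i * swap 5 (swap 4 i j) * swap 0 1

theorem gD_spec : ∀ i j : Fin 6,
    Perm.sign (gD i j) = 1 ∧ (i ≠ j → gD i j 4 = i ∧ gD i j 5 = j) := by decide +kernel

/-- A permutation sending `0, 3, 4` to three given points. -/
def triP (a b c : Fin 6) : Perm (Fin 6) :=
  swap 0 a * swap 3 (swap 0 a b) *
    swap 4 ((swap 0 a * swap 3 (swap 0 a b))⁻¹ c)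

theorem triP_spec : ∀ a b c : Fin 6, a ≠ b → a ≠ c → b ≠ c →
    triP a b c 0 = a ∧ triP a b c 3 = b ∧ triP a b c 4 = c := by decide +kernel

/-- The point `4, 5` of the module. -/
def w45 : W4 := wRed fun k => (if k = 4 then 1 else 0) + (if k = 5 then 1 else 0)

theorem w45_ne : w45 ≠ 0 := by decide +kernel

theorem fixed_w45 : ∀ w : W4, (∀ g ∈ [a1, a2, tt, ea], wAct g w = w) → w = 0 ∨ w = w45 := by
  decide +kernel

theorem gens_fix_w45 : ∀ g ∈ [a1, a2, tt, ea], wAct g w45 = w45 := by decide +kernel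

/-- A linear function given by its values on the basis. -/
def lin (k x : W4) : ZMod 2 :=
  k.1 * x.1 + k.2.1 * x.2.1 + k.2.2.1 * x.2.2.1 + k.2.2.2 * x.2.2.2

theorem fixed_lin : ∀ k : W4, (∀ g ∈ [a1, a2, tt, ea], ∀ x, lin k (wAct g x) = lin k x) →
    (∀ x, lin k x = 0) ∨ (∀ x, lin k x = wB w45 x) := by decide +kernel

theorem lin_eq (f : W4 → ZMod 2) (hf : ∀ a b, f (a + b) = f a + f b) (x : W4) :
    f x = lin (f (1, 0, 0, 0), f (0, 1, 0, 0), f (0, 0, 1, 0), f (0, 0, 0, 1)) x := by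
  have h0 : f 0 = 0 := by
    have := hf 0 0
    rw [add_zero] at this
    exact left_eq_add.mp this
  have hz : ∀ e : ZMod 2, ∀ w : W4, f (e • w) = e * f w := by
    intro e w
    fin_cases e
    · show f ((0 : ZMod 2) • w) = (0 : ZMod 2) * f w
      rw [zero_smul, h0, zero_mul]
    · show f ((1 : ZMod 2) • w) = (1 : ZMod 2) * f w
      rw [one_smul, one_mul]
  obtain ⟨a, b, c, d⟩ := x
  have e : ((a, b, c, d) : W4) = a • ((1, 0, 0, 0) : W4) + b • ((0, 1, 0, 0) : W4)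
      + c • ((0, 0, 1, 0) : W4) + d • ((0, 0, 0, 1) : W4) := by simp
  rw [e, hf, hf, hf, hz, hz, hz, hz, ← e, lin]
  ring

end Cfsg.Agent.H70.CHZ.Diag
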