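import Cfsg.Agent.H70.CHZ.DiagFacts
import Cfsg.Agent.H70.CHZ.ToTensorLin

/-!
# A fixed-point-free `3 × A₆` of isometries of an orthogonal 8-space: coordinates from a vector
fixed by a duad stabiliser, and existence of such a vector
-/

set_option autoImplicit false
set_option linter.unusedSectionVars false
set_option synthInstance.maxSize 2000

namespace Cfsg.Agent.H70.CHZ.Diag

open Equiv

variable {V : Type*} [AddCommGroup V]

/-- `A₆` (the even permutations) acting by isometries, commuting with a fixed-point-free element of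
order three. -/
structure Act (q : V → ZMod 2) (B : V → V → ZMod 2) (c : V →+ V)
    (R : Perm (Fin 6) → V →+ V) : Prop where
  two : ∀ x : V, x + x = 0
  card : Nat.card V = 256
  q_add : ∀ x y, q (x + y) = q x + q y + B x y
  B_add : ∀ x y w, B (x + y) w = B x w + B y w
  nondeg : ∀ x, (∀ y, B x y = 0) → x = 0
  c_two : ∀ x, c (c x) = x + c x
  q_c : ∀ x, q (c x) = q x
  R_one : ∀ x, R 1 x = x
  R_mul : ∀ g k, Perm.sign g = 1 → Perm.sign k = 1 → ∀ x, R (g * k) x = R g (R k x)
  R_c : ∀ g, Perm.sign g = 1 → ∀ x, R g (c x) = c (R g x)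
  q_R : ∀ g, Perm.sign g = 1 → ∀ x, q (R g x) = q x
  faithful : ∀ g, Perm.sign g = 1 → (∀ x, R g x = x) → g = 1

namespace Act

variable {q : V → ZMod 2} {B : V → V → ZMod 2} {c : V →+ V} {R : Perm (Fin 6) → V →+ V}
variable (h : Act q B c R)
include h

theorem finite : Finite V :=
  Nat.finite_of_card_ne_zero (by rw [h.card]; norm_num)

theorem neg_eq (x : V) : -x = x := neg_eq_of_add_eq_zero_left (h.two x)

theorem eq_of_add {x y : V} (he : x + y = 0) : x = y := by
  rw [eq_neg_of_add_eq_zero_left he, h.neg_eq]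

theorem q_zero : q 0 = 0 := by
  have h1 := h.q_add 0 0
  have h2 : B (0 : V) 0 = 0 := by
    have := h.B_add 0 0 0
    rw [add_zero, ToTensor.zmod2_add_self] at this
    exact this
  rw [add_zero, h2, add_zero, ToTensor.zmod2_add_self] at h1
  exact h1

theorem B_symm (x y : V) : B x y = B y x := by
  have h1 := h.q_add x y
  have h2 := h.q_add y x
  rw [add_comm y x, h1, add_comm (q y) (q x)] at h2
  exact add_left_cancel h2

theorem B_self (x : V) : B x x = 0 := by
  have h1 := h.q_add x x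
  rw [h.two, h.q_zero, ToTensor.zmod2_add_self, zero_add] at h1
  exact h1.symm

theorem B_add_right (x y w : V) : B x (y + w) = B x y + B x w := by
  rw [h.B_symm, h.B_add, h.B_symm y, h.B_symm w]

theorem B_zero_left (x : V) : B 0 x = 0 := by
  have h1 := h.B_add 0 0 x
  rw [add_zero, ToTensor.zmod2_add_self] at h1
  exact h1

theorem B_zero_right (x : V) : B x 0 = 0 := by rw [h.B_symm, h.B_zero_left]

theorem B_map (f : V →+ V) (hq : ∀ x, q (f x) = q x) (x y : V) : B (f x) (f y) = B x y := by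
  have h1 := h.q_add (f x) (f y)
  rw [← map_add, hq, hq, hq, h.q_add x y] at h1
  exact (add_left_cancel h1).symm

theorem B_c (x : V) : B x (c x) = q x := by
  have h1 : q (c (c x)) = q x := by rw [h.q_c, h.q_c]
  rw [h.c_two, h.q_add, h.q_c, ToTensor.zmod2_add_self, zero_add] at h1
  exact h1

theorem c_three (x : V) : c (c (c x)) = x := by
  rw [h.c_two, h.c_two, add_left_comm, h.two, add_zero]

theorem c_fix {x : V} (hx : c x = x) : x = 0 := by
  have h1 := h.c_two x
  rw [hx, hx, h.two] at h1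
  exact h1

theorem R_pow {g : Perm (Fin 6)} (hg : Perm.sign g = 1) {x : V} (hx : R g x = x) (k : ℕ) :
    R (g ^ k) x = x := by
  induction k with
  | zero => rw [pow_zero, h.R_one]
  | succ k ih => rw [pow_succ, h.R_mul _ _ (by rw [map_pow, hg, one_pow]) hg, hx, ih]

theorem R_inv {g : Perm (Fin 6)} (hg : Perm.sign g = 1) (x : V) : R g⁻¹ (R g x) = x := by
  rw [← h.R_mul _ _ (by rw [map_inv, hg]; rfl) hg, inv_mul_cancel, h.R_one]

/-- A function of constant value on the nonzero elements of a subgroup of order at least 8 that is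
the restriction of `q` vanishes there. -/
theorem const_zero (S : AddSubgroup V) (hS : 8 ≤ Nat.card S) (e : ZMod 2)
    (he : ∀ x ∈ S, x ≠ 0 → q x = e) : e = 0 := by
  classical
  rcases ToTensor.zmod2_cases e with he0 | he0
  · exact he0
  exfalso
  subst he0
  have hB : ∀ x ∈ S, ∀ y ∈ S, x ≠ 0 → y ≠ 0 → x + y ≠ 0 → B x y = 1 := by
    intro x hx y hy hx0 hy0 hxy
    have h1 := h.q_add x y
    rw [he x hx hx0, he y hy hy0, he _ (S.add_mem hx hy) hxy, ToTensor.zmod2_add_self, zero_add]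
      at h1
    exact h1.symm
  have hpick : ∀ T : Finset V, T.card ≤ 4 → ∃ x ∈ S, x ∉ T := by
    intro T hT
    by_contra hc
    push Not at hc
    have h1 : (S : Set V).ncard ≤ (T : Set V).ncard := Set.ncard_le_ncard hc T.finite_toSet
    rw [Set.ncard_coe_finset] at h1
    have h2 : Nat.card S = (S : Set V).ncard := Nat.card_coe_set_eq _
    omega
  obtain ⟨x, hx, hxT⟩ := hpick {0} (by simp)
  obtain ⟨y, hy, hyT⟩ := hpick {0, x} (Finset.card_le_two.trans (by norm_num))
  obtain ⟨w, hw, hwT⟩ := hpick {0, x, y, x + y} Finset.card_le_four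
  simp only [Finset.mem_insert, Finset.mem_singleton, not_or] at hxT hyT hwT
  have hxy : x + y ≠ 0 := fun e1 => hyT.2 (h.eq_of_add e1).symm
  have hxw : x + w ≠ 0 := fun e1 => hwT.2.1 (h.eq_of_add e1).symm
  have hyw : y + w ≠ 0 := fun e1 => hwT.2.2.1 (h.eq_of_add e1).symm
  have hxyw : x + (y + w) ≠ 0 := fun e1 => hwT.2.2.2 (by
    rw [← add_assoc] at e1; exact (h.eq_of_add e1).symm)
  have h1 := hB x hx (y + w) (S.add_mem hy hw) hxT hyw hxyw
  rw [h.B_add_right, hB x hx y hy hxT hyT.1 hxy, hB x hx w hw hxT hwT.1 hxw] at h1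
  exact absurd h1 (by decide)

/-- An element of order five has no nonzero fixed vector. -/
theorem five_fpf {g : Perm (Fin 6)} (hg : Perm.sign g = 1) (h5 : g ^ 5 = 1) (hne : g ≠ 1)
    {x : V} (hx : R g x = x) : x = 0 := by
  classical
  have := h.finite
  by_contra hx0
  have hf5 : ∀ y, R g (R g (R g (R g (R g y)))) = y := fun y => by
    have hs : ∀ k : ℕ, Perm.sign (g ^ k) = 1 := fun k => by rw [map_pow, hg, one_pow]
    have h1 := h.R_one y
    rw [← h5, show g ^ 5 = g * (g * (g * (g * g))) by simp [pow_succ, mul_assoc],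
      h.R_mul g (g * (g * (g * g))) hg (by simp [hg]), h.R_mul g (g * (g * g)) hg (by simp [hg]),
      h.R_mul g (g * g) hg (by simp [hg]), h.R_mul g g hg hg] at h1
    exact h1
  let P : AddSubgroup V := (R g - AddMonoidHom.id V).ker
  have hP : ∀ y, y ∈ P ↔ R g y = y := fun y => by
    rw [AddMonoidHom.mem_ker, AddMonoidHom.sub_apply, sub_eq_zero]
    rfl
  let W : AddSubgroup V := (R g - AddMonoidHom.id V).range
  have hPW : ∀ y, y ∈ P → y ∈ W → y = 0 := by
    rintro y hy ⟨u, rfl⟩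
    have h1 : R g (R g u - u) = R g u - u := (hP _).1 hy
    have key : ∀ n : ℕ, (fun v => R g v)^[n] u = u + n • (R g u - u) := by
      intro n
      induction n with
      | zero => simp
      | succ n ih =>
        rw [Function.iterate_succ_apply', ih]
        show R g (u + n • (R g u - u)) = _
        rw [map_add, map_nsmul, h1, succ_nsmul]
        abel
    have h2 := key 5
    simp only [Function.iterate_succ_apply', Function.iterate_zero_apply] at h2
    rw [hf5] at h2
    have h3 : (5 : ℕ) • (R g u - u) = 0 := by rwa [eq_comm, add_eq_left] at h2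
    show R g u - u = 0
    rwa [show (5 : ℕ) = 2 + 2 + 1 from rfl, succ_nsmul, add_nsmul, h.two, zero_add] at h3
  have hcard : Nat.card P * Nat.card W = 256 := by
    rw [← h.card]
    exact ((R g - AddMonoidHom.id V).ker.card_mul_index).symm.trans (by
      rw [AddSubgroup.index_ker]) |>.symm
  have horth : ∀ p ∈ P, ∀ w ∈ W, B p w = 0 := by
    rintro p hp _ ⟨u, rfl⟩
    show B p (R g u - u) = 0
    rw [sub_eq_add_neg, h.neg_eq, h.B_add_right]
    conv_lhs => arg 1; rw [← (hP p).1 hp, h.B_map _ (h.q_R g hg)]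
    exact ToTensor.zmod2_add_self _
  -- the fixed space has order `16`
  have hP16 : Nat.card P = 16 := by
    have hm := ToTensor.card_modEq_fixed (α := V) (fun y => R g y) hf5
    rw [h.card, Nat.card_congr (Equiv.subtypeEquivRight (fun y => ((hP y).symm)) :
      {y : V // R g y = y} ≃ {y : V // y ∈ P})] at hm
    have hd : Nat.card P ∣ 2 ^ 8 := Dvd.intro _ (hcard.trans (by norm_num))
    obtain ⟨k, hk, hPk⟩ := (Nat.dvd_prime_pow Nat.prime_two).1 hd
    have hne1 : Nat.card P ≠ 1 := fun e => by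
      have := (AddSubgroup.card_eq_one.1 e) ▸ (hP x).2 hx
      exact hx0 (AddSubgroup.mem_bot.1 this)
    have hne256 : Nat.card P ≠ 256 := fun e => hne (h.faithful g hg fun y => (hP y).1 (by
      rw [AddSubgroup.eq_top_of_card_eq P (e.trans h.card.symm)]; trivial))
    rw [hPk] at hne1 hne256 ⊢
    change 256 ≡ Nat.card P [MOD 5] at hm
    rw [hPk] at hm
    unfold Nat.ModEq at hm
    interval_cases k <;> omega
  have hW16 : Nat.card W = 16 := by rw [hP16] at hcard; omega
  have hcW : ∀ y ∈ W, c y ∈ W := by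
    rintro _ ⟨u, rfl⟩
    exact ⟨c u, by simp [map_sub, h.R_c g hg]⟩
  have hgW : ∀ y ∈ W, R g y ∈ W := by
    rintro _ ⟨u, rfl⟩
    exact ⟨R g u, by simp [map_sub]⟩
  -- the singular nonzero vectors of `W` are permuted freely by both elements
  let S := {y : V // y ∈ W ∧ y ≠ 0 ∧ q y = 0}
  have h5S : Nat.card S % 5 = 0 := by
    have hm := ToTensor.card_modEq_fixed (α := S) (fun y => ⟨R g y.1, hgW _ y.2.1, fun e => y.2.2.1 (by
      rw [← h.R_inv hg y.1, e, map_zero]), by rw [h.q_R g hg]; exact y.2.2.2⟩)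
      (fun y => Subtype.ext (hf5 y.1))
    have hE : IsEmpty {y : S // (⟨R g y.1, hgW _ y.2.1, fun e => y.2.2.1 (by
      rw [← h.R_inv hg y.1, e, map_zero]), by rw [h.q_R g hg]; exact y.2.2.2⟩ : S) = y} :=
      ⟨fun y => y.1.2.2.1 (hPW _ ((hP _).2 (congrArg Subtype.val y.2)) y.1.2.1)⟩
    rw [Nat.card_eq_zero.2 (Or.inl hE)] at hm
    exact hm
  have h3S : Nat.card S % 3 = 0 := by
    have : Fact (Nat.Prime 3) := ⟨Nat.prime_three⟩
    have : Fintype S := Fintype.ofFinite S
    let F : Function.End S := fun y => ⟨c y.1, hcW _ y.2.1, fun e => y.2.2.1 (by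
      rw [← h.c_three y.1, e, map_zero, map_zero]), by rw [h.q_c]; exact y.2.2.2⟩
    have hF : F ^ 3 ^ 1 = 1 := by
      funext y
      exact Subtype.ext (h.c_three y.1)
    have hm := Equiv.Perm.card_fixedPoints_modEq (f := F) (p := 3) (n := 1) hF
    have hE : IsEmpty (Function.fixedPoints F) :=
      ⟨fun y => y.1.2.2.1 (h.c_fix (congrArg Subtype.val y.2))⟩
    rw [← Nat.card_eq_fintype_card, ← Nat.card_eq_fintype_card,
      Nat.card_eq_zero.2 (Or.inl hE)] at hm
    exact hm
  have hSle : Nat.card S ≤ 15 := by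
    have h1 : Nat.card S < Nat.card W := by
      rw [show Nat.card S = ({u | u ∈ W ∧ u ≠ 0 ∧ q u = 0} : Set V).ncard from Nat.card_coe_set_eq _,
        show Nat.card W = (W : Set V).ncard from Nat.card_coe_set_eq _]
      exact Set.ncard_lt_ncard ⟨fun y hy => hy.1, fun hh => (hh W.zero_mem).2.1 rfl⟩
    omega
  obtain ⟨e, he⟩ : ∃ e, ∀ y ∈ W, y ≠ 0 → q y = e := by
    rcases (show Nat.card S = 0 ∨ Nat.card S = 15 by omega) with h0 | h15
    · refine ⟨1, fun y hy hy0 => (ToTensor.zmod2_cases _).resolve_left fun hq => ?_⟩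
      have : IsEmpty S := (Nat.card_eq_zero.1 h0).resolve_right (not_infinite_iff_finite.2 inferInstance)
      exact this.false ⟨y, hy, hy0, hq⟩
    · refine ⟨0, fun y hy hy0 => ?_⟩
      by_contra hq
      have h1 : ({u | u ∈ W ∧ u ≠ 0 ∧ q u = 0} : Set V).ncard + 2 ≤ (W : Set V).ncard := by
        have hsub : {u | u ∈ W ∧ u ≠ 0 ∧ q u = 0} ∪ {0, y} ⊆ (W : Set V) := by
          rintro u (hu | hu | hu)
          · exact hu.1
          · rw [hu]; exact W.zero_mem
          · rw [Set.mem_singleton_iff.1 hu]; exact hy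
        have hd : Disjoint {u | u ∈ W ∧ u ≠ 0 ∧ q u = 0} ({0, y} : Set V) := by
          rw [Set.disjoint_left]
          rintro u hu (hu' | hu')
          · exact hu.2.1 hu'
          · exact hq (Set.mem_singleton_iff.1 hu' ▸ hu.2.2)
        have := Set.ncard_le_ncard hsub
        rwa [Set.ncard_union_eq hd, Set.ncard_pair (Ne.symm hy0)] at this
      rw [← Nat.card_coe_set_eq, ← Nat.card_coe_set_eq] at h1
      change Nat.card S + 2 ≤ Nat.card W at h1
      omega
  obtain rfl := h.const_zero W (by omega) e he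
  have hq0 : ∀ y ∈ W, q y = 0 := fun y hy => by
    by_cases hy0 : y = 0
    · rw [hy0, h.q_zero]
    · exact he y hy hy0
  have hBW : ∀ y ∈ W, ∀ u ∈ W, B y u = 0 := fun y hy u hu => by
    have := h.q_add y u
    rw [hq0 y hy, hq0 u hu, hq0 _ (W.add_mem hy hu), add_zero, zero_add] at this
    exact this.symm
  let j : P × W → V := fun p => (p.1 : V) + p.2
  have hj : Function.Bijective j := by
    refine (Nat.bijective_iff_injective_and_card j).2 ⟨?_, by rw [Nat.card_prod, h.card, hP16, hW16]⟩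
    rintro ⟨⟨p, hp⟩, ⟨w, hw⟩⟩ ⟨⟨p', hp'⟩, ⟨w', hw'⟩⟩ he'
    change p + w = p' + w' at he'
    have h0 : p - p' = w' - w := by
      rw [sub_eq_sub_iff_add_eq_add, he', add_comm]
    have h1 := hPW _ (P.sub_mem hp hp') (h0 ▸ W.sub_mem hw' hw)
    rw [h1, eq_comm, sub_eq_zero] at h0
    rw [sub_eq_zero] at h1
    subst h1
    subst h0
    rfl
  have hWbot : ∀ y ∈ W, y = 0 := fun y hy => h.nondeg y fun u => by
    obtain ⟨⟨p, w⟩, rfl⟩ := hj.2 u
    show B y ((p : V) + w) = 0
    rw [h.B_add_right, h.B_symm y p, horth _ p.2 y hy, hBW y hy _ w.2, add_zero]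
  have : W = ⊥ := (AddSubgroup.eq_bot_iff_forall W).2 hWbot
  rw [this, AddSubgroup.card_bot] at hW16
  omega

/-- A common fixed vector of generators is fixed by the products. -/
theorem fix_mul {g k : Perm (Fin 6)} (hg : Perm.sign g = 1) (hk : Perm.sign k = 1) {x : V}
    (h1 : R g x = x) (h2 : R k x = x) : R (g * k) x = x := by
  rw [h.R_mul g k hg hk, h2, h1]

theorem fix_words {x₁ x₂ x₃ x₄ : Perm (Fin 6)} {v : V}
    (hv : ∀ g ∈ [x₁, x₂, x₃, x₄], Perm.sign g = 1 ∧ R g v = v) :
    ∀ g ∈ words x₁ x₂ x₃ x₄, R g v = v ∧ Perm.sign g = 1 := by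
  let H : Submonoid (Perm (Fin 6)) :=
    { carrier := {g | R g v = v ∧ Perm.sign g = 1}
      one_mem' := ⟨h.R_one v, map_one _⟩
      mul_mem' := fun {g k} hg hk => ⟨h.fix_mul hg.2 hk.2 hg.1 hk.1, by rw [map_mul, hg.2, hk.2, one_mul]⟩ }
  have hH : ∀ g ∈ [x₁, x₂, x₃, x₄], g ∈ H := fun g hg => ⟨(hv g hg).2, (hv g hg).1⟩
  simp only [List.mem_cons, List.not_mem_nil, or_false, forall_eq_or_imp, forall_eq] at hH
  obtain ⟨m1, m2, m3, m4⟩ := hH
  intro g hg
  suffices g ∈ H from this
  simp only [words, List.mem_flatMap, List.mem_cons, List.not_mem_nil, or_false] at hg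
  obtain ⟨k, hk, e, he, hg⟩ := hg
  have hkH : k ∈ H := by
    rcases hk with rfl | rfl | rfl | rfl
    exacts [H.one_mem, m1, m2, H.mul_mem m1 m2]
  have heH : e ∈ H := by
    rcases he with rfl | rfl | rfl
    exacts [H.one_mem, m4, H.mul_mem m4 m4]
  rcases hg with rfl | rfl
  exacts [H.mul_mem hkH heH, H.mul_mem (H.mul_mem hkH heH) m3]

theorem fix_stabList {v : V} (hv : ∀ g ∈ [a1, a2, tt, ea], R g v = v) :
    ∀ g ∈ stabList, R g v = v ∧ Perm.sign g = 1 :=
  h.fix_words fun g hg => ⟨sign_gens g (by simp at hg ⊢; tauto), hv g hg⟩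

/-- Either kind of stabiliser of order 24 fixes a nonzero vector. -/
theorem exists_fixed :
    (∃ v, v ≠ 0 ∧ ∀ g ∈ [a1, a2, tt, ea], R g v = v) ∨
      ∃ v, v ≠ 0 ∧ ∀ g ∈ [a1, tt, a2, eb], R g v = v := by
  classical
  have := h.finite
  by_contra hcon
  push Not at hcon
  obtain ⟨hA, hB⟩ := hcon
  have s1 : Perm.sign a1 = 1 := sign_gens _ (by simp)
  have s2 : Perm.sign a2 = 1 := sign_gens _ (by simp)
  have st : Perm.sign tt = 1 := sign_gens _ (by simp)
  have se : Perm.sign ea = 1 := sign_gens _ (by simp)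
  have sf : Perm.sign eb = 1 := sign_gens _ (by simp)
  let T : AddSubgroup V :=
    { carrier := {y | R a1 y = y ∧ R a2 y = y ∧ R tt y = y}
      zero_mem' := ⟨map_zero _, map_zero _, map_zero _⟩
      add_mem' := fun {a b} ha hb => ⟨by rw [map_add, ha.1, hb.1], by rw [map_add, ha.2.1, hb.2.1],
        by rw [map_add, ha.2.2, hb.2.2]⟩
      neg_mem' := fun {a} ha => by rw [h.neg_eq]; exact ha }
  have hA' : ∀ y ∈ T, R ea y = y → y = 0 := fun y hy he => by
    by_contra hy0
    obtain ⟨g, hg, hne⟩ := hA y hy0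
    simp only [List.mem_cons, List.not_mem_nil, or_false] at hg
    rcases hg with rfl | rfl | rfl | rfl
    exacts [hne hy.1, hne hy.2.1, hne hy.2.2, hne he]
  have hB' : ∀ y ∈ T, R eb y = y → y = 0 := fun y hy he => by
    by_contra hy0
    obtain ⟨g, hg, hne⟩ := hB y hy0
    simp only [List.mem_cons, List.not_mem_nil, or_false] at hg
    rcases hg with rfl | rfl | rfl | rfl
    exacts [hne hy.1, hne hy.2.2, hne hy.2.1, hne he]
  have hc3 : ∀ (e : Perm (Fin 6)), Perm.sign e = 1 → e * e * e = 1 → ∀ y, R e (R e (R e y)) = y := by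
    intro e hes he y
    rw [← h.R_mul e e hes hes, ← h.R_mul (e * e) e (by simp [hes]) hes, he, h.R_one]
  -- `e y` is fixed by the four group normalised by `e`
  have hEA : ∀ y ∈ T, ∀ a ∈ [a1, a2], R a (R ea y) = R ea y := by
    intro y hy a ha
    obtain ⟨b, hb, he⟩ := norm_ea a ha
    have hsa : Perm.sign a = 1 := by
      simp only [List.mem_cons, List.not_mem_nil, or_false] at ha
      rcases ha with rfl | rfl <;> assumption
    have hbs : Perm.sign b = 1 ∧ R b y = y := by
      simp only [List.mem_cons, List.not_mem_nil, or_false] at hb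
      rcases hb with rfl | rfl | rfl
      exacts [⟨s1, hy.1⟩, ⟨s2, hy.2.1⟩,
        ⟨by rw [map_mul, s1, s2, one_mul], h.fix_mul s1 s2 hy.1 hy.2.1⟩]
    rw [← h.R_mul a ea hsa se, he, h.R_mul ea b se hbs.1, hbs.2]
  have hEB : ∀ y ∈ T, ∀ a ∈ [a1, tt], R a (R eb y) = R eb y := by
    intro y hy a ha
    obtain ⟨b, hb, he⟩ := norm_eb a ha
    have hsa : Perm.sign a = 1 := by
      simp only [List.mem_cons, List.not_mem_nil, or_false] at ha
      rcases ha with rfl | rfl <;> assumption
    have hbs : Perm.sign b = 1 ∧ R b y = y := by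
      simp only [List.mem_cons, List.not_mem_nil, or_false] at hb
      rcases hb with rfl | rfl | rfl
      exacts [⟨s1, hy.1⟩, ⟨st, hy.2.2⟩,
        ⟨by rw [map_mul, s1, st, one_mul], h.fix_mul s1 st hy.1 hy.2.2⟩]
    rw [← h.R_mul a eb hsa sf, he, h.R_mul eb b sf hbs.1, hbs.2]
  have hTne : 4 ≤ Nat.card T := by
    have hinv : ∀ g : Perm (Fin 6), Perm.sign g = 1 → g * g = 1 → ∀ (U : AddSubgroup V), (∀ u ∈ U, R g u ∈ U) →
        U ≠ ⊥ → ∃ u ∈ U, u ≠ 0 ∧ R g u = u := by
      intro g hg hgg U hU hUne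
      obtain ⟨u, hu, hu0⟩ : ∃ u ∈ U, u ≠ 0 := by
        by_contra hall
        push Not at hall
        exact hUne ((AddSubgroup.eq_bot_iff_forall U).2 hall)
      by_cases hfix : u + R g u = 0
      · exact ⟨u, hu, hu0, (h.eq_of_add hfix).symm⟩
      · refine ⟨u + R g u, U.add_mem hu (hU u hu), hfix, ?_⟩
        rw [map_add, ← h.R_mul g g hg hg, hgg, h.R_one, add_comm]
    let U1 : AddSubgroup V := (R a1 - AddMonoidHom.id V).ker
    have hU1 : ∀ y, y ∈ U1 ↔ R a1 y = y := fun y => by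
      rw [AddMonoidHom.mem_ker, AddMonoidHom.sub_apply, sub_eq_zero]; rfl
    have htop : (⊤ : AddSubgroup V) ≠ ⊥ := fun e => by
      have := congrArg (fun U : AddSubgroup V => Nat.card U) e
      simp [h.card] at this
    obtain ⟨u, -, hu0, hu⟩ := hinv a1 s1 (by decide) ⊤ (fun _ _ => trivial) htop
    obtain ⟨u', hu'U, hu'0, hu'⟩ := hinv a2 s2 (by decide) U1 (fun w hw => (hU1 _).2 (by
      rw [← h.R_mul a1 a2 s1 s2, show a1 * a2 = a2 * a1 by decide, h.R_mul a2 a1 s2 s1,
        (hU1 _).1 hw])) (fun e => hu0 (AddSubgroup.mem_bot.1 (e ▸ (hU1 u).2 hu)))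
    let U2 : AddSubgroup V := U1 ⊓ (R a2 - AddMonoidHom.id V).ker
    have hU2 : ∀ y, y ∈ U2 ↔ R a1 y = y ∧ R a2 y = y := fun y => by
      rw [AddSubgroup.mem_inf, hU1, AddMonoidHom.mem_ker, AddMonoidHom.sub_apply, sub_eq_zero]; rfl
    obtain ⟨w, hwU, hw0, hw⟩ := hinv tt st (by decide) U2 (fun y hy => by
      obtain ⟨hy1, hy2⟩ := (hU2 _).1 hy
      refine (hU2 _).2 ⟨?_, ?_⟩
      · rw [← h.R_mul a1 tt s1 st, show a1 * tt = tt * a1 by decide, h.R_mul tt a1 st s1, hy1]
      · rw [← h.R_mul a2 tt s2 st, show a2 * tt = tt * (a1 * a2) by decide,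
          h.R_mul tt (a1 * a2) st (by rw [map_mul, s1, s2, one_mul]), h.fix_mul s1 s2 hy1 hy2])
      (fun e => hu'0 (AddSubgroup.mem_bot.1 (e ▸ (hU2 u').2 ⟨(hU1 _).1 hu'U, hu'⟩)))
    have hwT : w ∈ T := ⟨((hU2 w).1 hwU).1, ((hU2 w).1 hwU).2, hw⟩
    have hcwT : c w ∈ T := by
      refine ⟨?_, ?_, ?_⟩
      · rw [h.R_c a1 s1, hwT.1]
      · rw [h.R_c a2 s2, hwT.2.1]
      · rw [h.R_c tt st, hwT.2.2]
    have hcw : c w ≠ 0 := fun e => hw0 (by rw [← h.c_three w, e, map_zero, map_zero])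
    have hne : c w ≠ w := fun e => hw0 (h.c_fix e)
    have hsum : w + c w ≠ 0 := fun e => hne (h.eq_of_add e).symm
    have hsub : ({0, w, c w, w + c w} : Set V) ⊆ T := by
      rintro y (rfl | rfl | rfl | rfl)
      exacts [T.zero_mem, hwT, hcwT, T.add_mem hwT hcwT]
    have h4 : ({0, w, c w, w + c w} : Set V).ncard = 4 := by
      rw [Set.ncard_insert_of_notMem (by simp [Ne.symm hw0, Ne.symm hcw, Ne.symm hsum]),
        Set.ncard_insert_of_notMem (by simp [Ne.symm hne, hcw]),
        Set.ncard_pair (by simp [hw0])]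
    have := Set.ncard_le_ncard hsub
    rw [h4, ← Nat.card_coe_set_eq] at this
    exact this
  let P : AddSubgroup V := (R a1 - AddMonoidHom.id V).ker
  have hP : ∀ y, y ∈ P ↔ R a1 y = y := fun y => by
    rw [AddMonoidHom.mem_ker, AddMonoidHom.sub_apply, sub_eq_zero]; rfl
  have hP64 : 64 ≤ Nat.card P := by
    let j : T × T × T → P := fun p => ⟨(p.1 : V) + R ea p.2.1 + R eb p.2.2,
      P.add_mem (P.add_mem ((hP _).2 p.1.2.1) ((hP _).2 (hEA _ p.2.1.2 a1 (by simp))))
        ((hP _).2 (hEB _ p.2.2.2 a1 (by simp)))⟩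
    have hj : Function.Injective j := by
      rintro ⟨⟨x, hx⟩, ⟨y, hy⟩, ⟨w, hw⟩⟩ ⟨⟨x', hx'⟩, ⟨y', hy'⟩, ⟨w', hw'⟩⟩ he
      have he' : x + R ea y + R eb w = x' + R ea y' + R eb w' := congrArg Subtype.val he
      have hdw : R eb (w - w') = (x' - x) + R ea (y' - y) := by
        rw [map_sub, map_sub]
        linear_combination (norm := abel) he'
      have hfix2 : R a2 (R eb (w - w')) = R eb (w - w') := by
        rw [hdw, map_add, (T.sub_mem hx' hx).2.1, hEA _ (T.sub_mem hy' hy) a2 (by simp)]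
      have hw0 : w - w' = 0 := by
        refine hB' _ (T.sub_mem hw hw') ?_
        have e1 : R eb (R eb (w - w')) = R eb (w - w') := by
          conv_rhs => rw [← hfix2, ← h.R_mul a2 eb s2 sf, invert.2,
            h.R_mul (eb * eb) a2 (by simp [sf]) s2, (T.sub_mem hw hw').2.1, h.R_mul eb eb sf sf]
        calc R eb (w - w') = R eb (R eb (R eb (R eb (w - w')))) := by
              rw [hc3 eb sf pow_gens.2.1]
          _ = R eb (R eb (R eb (w - w'))) := congrArg (fun v => R eb (R eb v)) e1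
          _ = w - w' := hc3 eb sf pow_gens.2.1 _
      rw [hw0, map_zero, eq_comm] at hdw
      have hy0 : y' - y = 0 := by
        refine hA' _ (T.sub_mem hy' hy) ?_
        have e0 : R ea (y' - y) = x - x' := by
          linear_combination (norm := abel) hdw
        have e1 : R ea (R ea (y' - y)) = R ea (y' - y) := by
          have e2 : R tt (R ea (y' - y)) = R ea (y' - y) := by rw [e0]; exact (T.sub_mem hx hx').2.2
          conv_rhs => rw [← e2, ← h.R_mul tt ea st se, invert.1,
            h.R_mul (ea * ea) tt (by simp [se]) st, (T.sub_mem hy' hy).2.2, h.R_mul ea ea se se]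
        calc R ea (y' - y) = R ea (R ea (R ea (R ea (y' - y)))) := by rw [hc3 ea se pow_gens.1]
          _ = R ea (R ea (R ea (y' - y))) := congrArg (fun v => R ea (R ea v)) e1
          _ = y' - y := hc3 ea se pow_gens.1 _
      rw [hy0, map_zero, add_zero, sub_eq_zero] at hdw
      rw [sub_eq_zero] at hw0 hy0
      subst hw0 hy0 hdw
      rfl
    have h1 := Nat.card_le_card_of_injective j hj
    rw [Nat.card_prod, Nat.card_prod] at h1
    have h2 : 4 * (4 * 4) ≤ Nat.card T * (Nat.card T * Nat.card T) :=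
      Nat.mul_le_mul hTne (Nat.mul_le_mul hTne hTne)
    omega
  have sg : Perm.sign f5 = 1 := five_product.1
  have hs' : Perm.sign (f5 * a1 * f5⁻¹) = 1 := by simp [sg, s1]
  let P' : AddSubgroup V := P.map (R f5)
  have hP' : Nat.card P' = Nat.card P := by
    refine (Nat.card_congr ((P.equivMapOfInjective (R f5) fun a b e => ?_).toEquiv)).symm
    rw [← h.R_inv sg a, e, h.R_inv sg b]
  obtain ⟨u, hu1, hu2, hu0⟩ : ∃ u, u ∈ P ∧ u ∈ P' ∧ u ≠ 0 := by
    by_contra hall
    push Not at hall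
    let j : P × P' → V := fun p => (p.1 : V) + p.2
    have hj : Function.Injective j := by
      rintro ⟨⟨a, ha⟩, ⟨b, hb⟩⟩ ⟨⟨a', ha'⟩, ⟨b', hb'⟩⟩ he
      change a + b = a' + b' at he
      have h0 : a - a' = b' - b := by rw [sub_eq_sub_iff_add_eq_add, he, add_comm]
      have h1 := hall _ (P.sub_mem ha ha') (h0 ▸ P'.sub_mem hb' hb)
      rw [h1, eq_comm, sub_eq_zero] at h0
      rw [sub_eq_zero] at h1
      subst h1 h0
      rfl
    have h1 := Nat.card_le_card_of_injective j hj
    rw [Nat.card_prod, hP', h.card] at h1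
    nlinarith
  have hfix' : R (f5 * a1 * f5⁻¹) u = u := by
    obtain ⟨w, hw, rfl⟩ := hu2
    rw [h.R_mul _ _ (by simp [sg, s1]) (by rw [map_inv, sg]; rfl), h.R_inv sg,
      h.R_mul f5 a1 sg s1, (hP w).1 hw]
  exact hu0 (h.five_fpf (by rw [map_mul, s1, hs', one_mul]) five_product.2.1 five_product.2.2
    (h.fix_mul s1 hs' ((hP u).1 hu1) hfix'))

end Act

end Cfsg.Agent.H70.CHZ.Diag
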