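import Cfsg.Agent.H70.CHZ.Model

/-! An outer automorphism of the symmetric group of degree six, exchanging triple transpositions and
transpositions: the permutation action on the six synthematic totals. -/

set_option autoImplicit false

namespace Cfsg.Agent.H70.CHZ

open Equiv

/-- The six totals, each as the five involutions of its synthemes. -/
def synTot : Fin 6 → List (Perm (Fin 6)) :=
  ![[swap 0 1 * swap 2 3 * swap 4 5, swap 0 2 * swap 1 4 * swap 3 5, swap 0 3 * swap 1 5 * swap 2 4, swap 0 4 * swap 1 3 * swap 2 5, swap 0 5 * swap 1 2 * swap 3 4],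
    [swap 0 1 * swap 2 3 * swap 4 5, swap 0 2 * swap 1 5 * swap 3 4, swap 0 3 * swap 1 4 * swap 2 5, swap 0 4 * swap 1 2 * swap 3 5, swap 0 5 * swap 1 3 * swap 2 4],
    [swap 0 1 * swap 2 4 * swap 3 5, swap 0 2 * swap 1 3 * swap 4 5, swap 0 3 * swap 1 4 * swap 2 5, swap 0 4 * swap 1 5 * swap 2 3, swap 0 5 * swap 1 2 * swap 3 4],
    [swap 0 1 * swap 2 4 * swap 3 5, swap 0 2 * swap 1 5 * swap 3 4, swap 0 3 * swap 1 2 * swap 4 5, swap 0 4 * swap 1 3 * swap 2 5, swap 0 5 * swap 1 4 * swap 2 3],
    [swap 0 1 * swap 2 5 * swap 3 4, swap 0 2 * swap 1 3 * swap 4 5, swap 0 3 * swap 1 5 * swap 2 4, swap 0 4 * swap 1 2 * swap 3 5, swap 0 5 * swap 1 4 * swap 2 3],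
    [swap 0 1 * swap 2 5 * swap 3 4, swap 0 2 * swap 1 4 * swap 3 5, swap 0 3 * swap 1 2 * swap 4 5, swap 0 4 * swap 1 5 * swap 2 3, swap 0 5 * swap 1 3 * swap 2 4]]

/-- Conjugation by `g` maps the total `k` into the total `k'`. -/
def SynMap (g : Perm (Fin 6)) (k k' : Fin 6) : Prop := ∀ x ∈ synTot k, g * x * g⁻¹ ∈ synTot k'

instance (g : Perm (Fin 6)) (k k' : Fin 6) : Decidable (SynMap g k k') := by
  unfold SynMap; infer_instance

theorem synTot_two : ∀ k : Fin 6, ∃ x ∈ synTot k, ∃ y ∈ synTot k, x ≠ y := by decide +kernel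

theorem synTot_meet : ∀ a b : Fin 6,
    (∃ x ∈ synTot a, ∃ y ∈ synTot a, x ≠ y ∧ x ∈ synTot b ∧ y ∈ synTot b) → a = b := by
  decide +kernel

theorem synMap_comp {g h : Perm (Fin 6)} {a b c : Fin 6} (hh : SynMap h a b) (hg : SynMap g b c) :
    SynMap (g * h) a c := fun x hx => by
  rw [show g * h * x * (g * h)⁻¹ = g * (h * x * h⁻¹) * g⁻¹ by group]
  exact hg _ (hh x hx)

theorem synMap_unique {g : Perm (Fin 6)} {k a b : Fin 6} (ha : SynMap g k a) (hb : SynMap g k b) :
    a = b := by
  obtain ⟨x, hx, y, hy, hne⟩ := synTot_two k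
  exact synTot_meet a b ⟨_, ha x hx, _, ha y hy, fun e => hne (mul_left_cancel (mul_right_cancel e)),
    hb x hx, hb y hy⟩

/-- The images of the five adjacent transpositions. -/
def thetaGen : Fin 5 → Perm (Fin 6) :=
  ![swap 0 1 * swap 2 3 * swap 4 5, swap 0 2 * swap 1 4 * swap 3 5, swap 0 1 * swap 2 5 * swap 3 4, swap 0 2 * swap 1 3 * swap 4 5, swap 0 1 * swap 2 4 * swap 3 5]

/-- Preimages of the five adjacent transpositions. -/
def thetaPre : Fin 5 → Perm (Fin 6) :=
  ![swap 0 1 * swap 2 3 * swap 4 5, swap 0 3 * swap 1 4 * swap 2 5, swap 0 1 * swap 2 4 * swap 3 5, swap 0 5 * swap 1 4 * swap 2 3, swap 0 1 * swap 2 5 * swap 3 4]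

theorem synMap_gen : ∀ (j : Fin 5) (k : Fin 6),
    SynMap (swap j.castSucc j.succ) k (thetaGen j k) := by decide +kernel

theorem synMap_pre : ∀ (j : Fin 5) (k : Fin 6),
    SynMap (thetaPre j) k (swap j.castSucc j.succ k) := by decide +kernel

theorem synMap_one (k : Fin 6) : SynMap 1 k k := fun x hx => by simpa using hx

theorem mem_closure_adj (g : Perm (Fin 6)) :
    g ∈ Submonoid.closure (Set.range fun j : Fin 5 => swap j.castSucc j.succ) := by
  rw [Perm.mclosure_swap_castSucc_succ]; trivial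

theorem synMap_exists (g : Perm (Fin 6)) (k : Fin 6) : ∃ k', SynMap g k k' := by
  induction mem_closure_adj g using Submonoid.closure_induction generalizing k with
  | mem x hx => obtain ⟨j, rfl⟩ := hx; exact ⟨_, synMap_gen j k⟩
  | one => exact ⟨k, synMap_one k⟩
  | mul x y _ _ hx hy =>
    obtain ⟨b, hb⟩ := hy k
    obtain ⟨c, hc⟩ := hx b
    exact ⟨c, synMap_comp hb hc⟩

/-- The action on the totals, as functions. -/
noncomputable def outerFun (g : Perm (Fin 6)) (k : Fin 6) : Fin 6 := (synMap_exists g k).choose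

theorem outerFun_eq {g : Perm (Fin 6)} {k k' : Fin 6} (h : SynMap g k k') : outerFun g k = k' :=
  synMap_unique (synMap_exists g k).choose_spec h

theorem outerFun_one (k : Fin 6) : outerFun 1 k = k := outerFun_eq (synMap_one k)

theorem outerFun_mul (g h : Perm (Fin 6)) (k : Fin 6) :
    outerFun (g * h) k = outerFun g (outerFun h k) :=
  outerFun_eq (synMap_comp (synMap_exists h k).choose_spec (synMap_exists g _).choose_spec)

/-- The outer automorphism. -/
noncomputable def theta : Perm (Fin 6) →* Perm (Fin 6) where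
  toFun g :=
    { toFun := outerFun g
      invFun := outerFun g⁻¹
      left_inv := fun k => by rw [← outerFun_mul, inv_mul_cancel, outerFun_one]
      right_inv := fun k => by rw [← outerFun_mul, mul_inv_cancel, outerFun_one] }
  map_one' := Equiv.ext outerFun_one
  map_mul' g h := Equiv.ext (outerFun_mul g h)

theorem theta_gen (j : Fin 5) : theta (swap j.castSucc j.succ) = thetaGen j :=
  Equiv.ext fun k => outerFun_eq (synMap_gen j k)

theorem theta_pre (j : Fin 5) : theta (thetaPre j) = swap j.castSucc j.succ :=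
  Equiv.ext fun k => outerFun_eq (synMap_pre j k)

theorem theta_surjective : Function.Surjective theta := fun g => by
  induction mem_closure_adj g using Submonoid.closure_induction with
  | mem x hx => obtain ⟨j, rfl⟩ := hx; exact ⟨_, theta_pre j⟩
  | one => exact ⟨1, map_one _⟩
  | mul x y _ _ hx hy =>
    obtain ⟨a, rfl⟩ := hx
    obtain ⟨b, rfl⟩ := hy
    exact ⟨a * b, map_mul _ _ _⟩

theorem theta_bijective : Function.Bijective theta :=
  Finite.surjective_iff_bijective.1 theta_surjective

theorem theta_injective : Function.Injective theta := theta_bijective.1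

theorem thetaGen_sign : ∀ j : Fin 5,
    Perm.sign (thetaGen j) = Perm.sign (swap j.castSucc j.succ : Perm (Fin 6)) := by
  decide +kernel

theorem sign_theta (g : Perm (Fin 6)) : Perm.sign (theta g) = Perm.sign g := by
  induction mem_closure_adj g using Submonoid.closure_induction with
  | mem x hx => obtain ⟨j, rfl⟩ := hx; beta_reduce; rw [theta_gen j]; exact thetaGen_sign j
  | one => rw [map_one]
  | mul x y _ _ hx hy => simp only [map_mul, hx, hy]

/-- The triple transposition `(01)(23)(45)` goes to the transposition `(01)`. -/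
theorem theta_trp :
    theta (swap 0 1 * swap 2 3 * swap 4 5) = swap 0 1 := by
  simpa [thetaPre] using theta_pre 0

/-- The transposition `(01)` goes to the triple transposition `(01)(23)(45)`. -/
theorem theta_swap :
    theta (swap 0 1) = swap 0 1 * swap 2 3 * swap 4 5 := by
  simpa [thetaGen] using theta_gen 0

/-- The stabiliser of the synthematic triple goes onto the stabiliser of the duad. -/
theorem theta_commute_iff (g : Perm (Fin 6)) :
    Commute (theta g) (swap 0 1) ↔ Commute g (swap 0 1 * swap 2 3 * swap 4 5) := by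
  refine ⟨fun h => theta_injective ?_, fun h => ?_⟩
  · rw [map_mul theta g, map_mul theta _ g, theta_trp]; exact h
  · rw [← theta_trp]; exact h.map theta

theorem commute_swap_iff : ∀ g : Perm (Fin 6),
    g * swap 0 1 = swap 0 1 * g ↔ (g 0 = 0 ∧ g 1 = 1) ∨ (g 0 = 1 ∧ g 1 = 0) := by
  intro g
  constructor
  · intro e
    have h0 : g 1 = swap 0 1 (g 0) := by simpa using congr($e 0)
    have key : ∀ a b : Fin 6, a ≠ b → b = swap 0 1 a → (a = 0 ∧ b = 1) ∨ (a = 1 ∧ b = 0) := by
      decide +kernel
    exact key _ _ (g.injective.ne (by decide)) h0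
  · intro h
    have key : g * swap 0 1 * g⁻¹ = swap 0 1 := by
      rw [← swap_apply_apply g 0 1]
      rcases h with ⟨a, b⟩ | ⟨a, b⟩ <;> rw [a, b]
      exact swap_comm _ _
    exact mul_inv_eq_iff_eq_mul.1 key

/-- The same, on points. -/
theorem theta_duad_iff (g : Perm (Fin 6)) :
    Commute g (swap 0 1 * swap 2 3 * swap 4 5) ↔
      (theta g 0 = 0 ∧ theta g 1 = 1) ∨ (theta g 0 = 1 ∧ theta g 1 = 0) :=
  (theta_commute_iff g).symm.trans (commute_swap_iff _)

theorem commute_duad45_iff : ∀ g : Perm (Fin 6),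
    g * swap 4 5 = swap 4 5 * g ↔ (g 4 = 4 ∧ g 5 = 5) ∨ (g 4 = 5 ∧ g 5 = 4) := by
  intro g
  constructor
  · intro e
    have h0 : g 5 = swap 4 5 (g 4) := by simpa using congr($e 4)
    have key : ∀ a b : Fin 6, a ≠ b → b = swap 4 5 a → (a = 4 ∧ b = 5) ∨ (a = 5 ∧ b = 4) := by
      decide +kernel
    exact key _ _ (g.injective.ne (by decide)) h0
  · intro h
    have key : g * swap 4 5 * g⁻¹ = swap 4 5 := by
      rw [← swap_apply_apply g 4 5]
      rcases h with ⟨a, b⟩ | ⟨a, b⟩ <;> rw [a, b]
      exact swap_comm _ _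
    exact mul_inv_eq_iff_eq_mul.1 key

/-- The outer automorphism taking the duad `{4,5}` to the partition `{01|23|45}`. -/
noncomputable def thetaDuad : Perm (Fin 6) ≃* Perm (Fin 6) :=
  (MulEquiv.ofBijective theta theta_bijective).trans (MulAut.conj (swap 3 4))

theorem thetaDuad_apply (g : Perm (Fin 6)) : thetaDuad g = swap 3 4 * theta g * (swap 3 4)⁻¹ := rfl

theorem sign_thetaDuad (g : Perm (Fin 6)) : Perm.sign (thetaDuad g) = Perm.sign g := by
  rw [thetaDuad_apply, map_mul, map_mul, map_inv, sign_theta, mul_inv_cancel_comm]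

theorem thetaDuad_swap : thetaDuad (swap 4 5) = swap 0 1 * swap 2 3 * swap 4 5 := by
  have h : theta (swap 4 5) = thetaGen 4 := theta_gen 4
  rw [thetaDuad_apply, h]
  decide +kernel

/-- The stabiliser of the duad `{4,5}` goes onto the stabiliser of the partition. -/
theorem thetaDuad_commute_iff (g : Perm (Fin 6)) :
    Commute (thetaDuad g) (swap 0 1 * swap 2 3 * swap 4 5) ↔
      (g 4 = 4 ∧ g 5 = 5) ∨ (g 4 = 5 ∧ g 5 = 4) := by
  rw [← thetaDuad_swap, ← commute_duad45_iff g]
  refine ⟨fun h => thetaDuad.injective ?_, fun h => Commute.map h thetaDuad⟩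
  rw [map_mul, map_mul]; exact h

end Cfsg.Agent.H70.CHZ
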