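import Cfsg.Agent.H70.CHZ.DiagCoords
import Cfsg.Agent.H70.CHZ.Outer
import Cfsg.Agent.H70.CHZ.ToTensor

/-!
# The fixed-point-free case with only the diagonal part of `S₃ × S₆`: the model tensor module
-/

set_option autoImplicit false
set_option linter.unusedSectionVars false
set_option synthInstance.maxSize 2000

namespace Cfsg.Agent.H70.CHZ

namespace Diag

open Equiv

theorem wAct_swap_w45 : wAct (swap 0 1) w45 = w45 := by decide +kernel

theorem diag_facts : Perm.sign cyc.1 = 1 ∧ Perm.sign cyc.2 = 1 ∧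
    cyc * (cyc * cyc) = 1 ∧
    ((swap 1 2, swap 0 1) : P36) * (swap 1 2, swap 0 1) = 1 ∧
    ((swap 1 2, swap 0 1) : P36) * cyc = cyc * (cyc * (swap 1 2, swap 0 1)) ∧
    ((1, swap 0 1) : P36) * (1, swap 0 1) = 1 ∧
    ((1, swap 0 1) : P36) * cyc = cyc * (1, swap 0 1) := by decide +kernel

theorem even3 : ∀ s : Perm (Fin 3), Perm.sign s = 1 →
    ((s, 1) : P36) = 1 ∨ ((s, 1) : P36) = cyc ∨ ((s, 1) : P36) = cyc * cyc := by decide +kernel

namespace Act

variable {V : Type*} [AddCommGroup V]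
variable {q : V → ZMod 2} {B : V → V → ZMod 2} {c : V →+ V} {R : Perm (Fin 6) → V →+ V}
variable {Φ : V ≃+ V8} {v : V}

/-- A map permuting the translates like `p` is `p` in coordinates. -/
theorem intertwine (hv : Φ v = (w45, 0))
    (hc : ∀ x, Φ (c x) = vAct cyc (Φ x))
    (hR : ∀ g, Perm.sign g = 1 → ∀ x, Φ (R g x) = vAct (1, g) (Φ x))
    (t d : V →+ V) (p e : P36) (hp : p.2 = swap 0 1) (htv : t v = v)
    (hpv : vAct p (w45, 0) = (w45, 0))
    (hd : ∀ x, Φ (d x) = vAct e (Φ x)) (htc : ∀ x, t (c x) = d (t x)) (hpe : p * cyc = e * p)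
    (htR : ∀ g, Perm.sign g = 1 → ∀ x, t (R g x) = R (swap 0 1 * g * swap 0 1) (t x)) :
    ∀ x, Φ (t x) = vAct p (Φ x) := by
  have hadd : ∀ x y, Φ (t x) = vAct p (Φ x) → Φ (t y) = vAct p (Φ y) →
      Φ (t (x + y)) = vAct p (Φ (x + y)) := fun x y hx hy => by
    rw [map_add t, map_add Φ, hx, hy, map_add Φ, vAct_add]
  have hw : ∀ w : W4, Φ (t (Φ.symm (w, 0))) = vAct p (w, 0) := by
    intro w
    by_cases h0 : w = 0
    · rw [h0, show ((0, 0) : V8) = 0 from rfl, map_zero, map_zero, map_zero, vAct_zero]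
    obtain ⟨g, hg, rfl⟩ := wAct_transitive w45_ne h0
    have hg' : Perm.sign (swap 0 1 * g * swap 0 1 : Perm (Fin 6)) = 1 := by
      rw [map_mul, map_mul, hg, mul_one, ← map_mul, swap_mul_self, map_one]
    have e0 : Φ.symm (wAct g w45, 0) = R g v := by
      rw [AddEquiv.symm_apply_eq, hR g hg, hv, vAct_snd, wAct_zero]
    have e1 : ((1, swap 0 1 * g * swap 0 1) : P36) * p = p * (1, g) := by
      refine Prod.ext (by simp) ?_
      show swap 0 1 * g * swap 0 1 * p.2 = p.2 * g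
      rw [hp, mul_assoc _ (swap 0 1) (swap 0 1), swap_mul_self, mul_one]
    calc Φ (t (Φ.symm (wAct g w45, 0)))
        = vAct (1, swap 0 1 * g * swap 0 1) (w45, 0) := by rw [e0, htR g hg, htv, hR _ hg', hv]
      _ = vAct ((1, swap 0 1 * g * swap 0 1) * p) (w45, 0) := by rw [vAct_mul, hpv]
      _ = vAct p (wAct g w45, 0) := by rw [e1, vAct_mul, vAct_snd, wAct_zero]
  have hfst : ∀ w : W4, Φ (t (Φ.symm (w, 0))) = vAct p (Φ (Φ.symm (w, 0))) := fun w => by
    rw [Φ.apply_symm_apply, hw]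
  intro x
  have hx : x = Φ.symm ((Φ x).1, 0) + c (Φ.symm ((Φ x).2, 0)) := by
    refine Φ.injective ?_
    rw [map_add Φ, hc, Φ.apply_symm_apply, Φ.apply_symm_apply, vAct_cyc]
    simp
  rw [hx]
  refine hadd _ _ (hfst _) ?_
  rw [htc, hd, hfst, ← vAct_mul, ← hpe, vAct_mul, ← hc]

/-- The vectors fixed like `v`. -/
theorem fixed_cases (hv : Φ v = (w45, 0))
    (hc : ∀ x, Φ (c x) = vAct cyc (Φ x))
    (hR : ∀ g, Perm.sign g = 1 → ∀ x, Φ (R g x) = vAct (1, g) (Φ x))
    {u : V} (hu : ∀ g ∈ [a1, a2, tt, ea], R g u = u) (hu0 : u ≠ 0) :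
    u = v ∨ u = c v ∨ u = c (c v) := by
  have hfix : ∀ g ∈ [a1, a2, tt, ea],
      wAct g (Φ u).1 = (Φ u).1 ∧ wAct g (Φ u).2 = (Φ u).2 := by
    intro g hg
    have h1 := hR g (sign_gens g (by simp at hg ⊢; tauto)) u
    rw [hu g hg, vAct_snd] at h1
    exact ⟨(congrArg Prod.fst h1).symm, (congrArg Prod.snd h1).symm⟩
  have ecv : Φ (c v) = (0, w45) := by rw [hc, hv, vAct_cyc, add_zero]
  have eccv : Φ (c (c v)) = (w45, w45) := by rw [hc, ecv, vAct_cyc, zero_add]
  rcases fixed_w45 _ (fun g hg => (hfix g hg).1) with e1 | e1 <;>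
    rcases fixed_w45 _ (fun g hg => (hfix g hg).2) with e2 | e2
  · exact absurd (Φ.map_eq_zero_iff.1 (Prod.ext e1 e2)) hu0
  · exact Or.inr (Or.inl (Φ.injective ((Prod.ext e1 e2 : Φ u = (0, w45)).trans ecv.symm)))
  · exact Or.inl (Φ.injective ((Prod.ext e1 e2 : Φ u = (w45, 0)).trans hv.symm))
  · exact Or.inr (Or.inr (Φ.injective ((Prod.ext e1 e2 : Φ u = (w45, w45)).trans eccv.symm)))

/-- An element acting like a transposition of the six points preserves the fixed vectors. -/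
theorem fix_image (h : Act q B c R) (hv : ∀ g ∈ [a1, a2, tt, ea], R g v = v) (t : V →+ V)
    (htR : ∀ g, Perm.sign g = 1 → ∀ x, t (R g x) = R (swap 0 1 * g * swap 0 1) (t x)) :
    ∀ g ∈ [a1, a2, tt, ea], R g (t v) = t v := by
  intro g hg
  obtain ⟨hm, hs⟩ := conj_gens g hg
  have h1 := htR _ hs v
  rw [(h.fix_stabList hv _ hm).1, show swap 0 1 * (swap 0 1 * g * swap 0 1) * swap 0 1 = g by
    rw [mul_assoc (swap 0 1) g, swap_mul_self_mul, mul_assoc, swap_mul_self, mul_one]] at h1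
  exact h1.symm

end Act

end Diag

namespace Diag

open Equiv ToTensor

universe u

variable {G : Type u} [Group G] {z : G} {Q : Subgroup G} {π : G → P36}

/-- `Q / ⟨z⟩` with the action of `C(z)`. -/
structure Setup {V : Type u} [AddCommGroup V] (z : G) (Q : Subgroup G) (π : G → P36) (L : G → V)
    (q : V → ZMod 2) (B : V → V → ZMod 2) (act : G → V →+ V) (c : V →+ V)
    (R : Perm (Fin 6) → V →+ V) : Prop where
  lin : Lin z Q L
  q_eq : ∀ a ∈ Q, q (L a) = bit (a * a)
  B_eq : ∀ a ∈ Q, ∀ b ∈ Q, B (L a) (L b) = bit (a * b * a⁻¹ * b⁻¹)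
  act_spec : ∀ a, a * z = z * a → ∀ x ∈ Q, act a (L x) = L (a * x * a⁻¹)
  act_one : ∀ v, act 1 v = v
  act_mul : ∀ a b, a * z = z * a → b * z = z * b → ∀ v, act (a * b) v = act a (act b v)
  act_eq : ∀ a b, a * z = z * a → b * z = z * b → π a = π b → ∀ v, act a v = act b v
  act_q : ∀ a, a * z = z * a → ∀ v, q (act a v) = q v
  c_eq : ∀ a, a * z = z * a → π a = cyc → ∀ v, act a v = c v
  R_eq : ∀ g, Perm.sign g = 1 → ∀ a, a * z = z * a → π a = (1, g) → ∀ v, act a v = R g v
  space : Act q B c R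

theorem exists_setup [Finite G] (h : Base z Q π) (hf : Fpf z Q π) :
    ∃ (V : Type u) (_ : AddCommGroup V) (L : G → V) (q : V → ZMod 2) (B : V → V → ZMod 2)
      (act : G → V →+ V) (c : V →+ V) (R : Perm (Fin 6) → V →+ V), Setup z Q π L q B act c R := by
  classical
  obtain ⟨V, _, L, hL, hV⟩ := exists_lin h
  have hs := h.sing
  obtain ⟨q, B, hq, hB, qadd, Badd, nd⟩ := hL.exists_form hs
  choose act hact using hL.exists_act hs
  have czm : ∀ {a b : G}, a * z = z * a → b * z = z * b → a * b * z = z * (a * b) := fun ha hb => by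
    rw [mul_assoc, hb, ← mul_assoc, ha, mul_assoc]
  have czi : ∀ {a : G}, a * z = z * a → a⁻¹ * z = z * a⁻¹ := fun ha => by
    rw [inv_mul_eq_iff_eq_mul, ← mul_assoc, ha, mul_inv_cancel_right]
  have act_one : ∀ v, act 1 v = v := by
    intro v
    obtain ⟨x, hx, rfl⟩ := hL.surj v
    rw [hact 1 (by simp) x hx]; simp
  have act_mul : ∀ a b, a * z = z * a → b * z = z * b → ∀ v, act (a * b) v = act a (act b v) := by
    intro a b ha hb v
    obtain ⟨x, hx, rfl⟩ := hL.surj v
    rw [hact _ (czm ha hb) x hx, hact b hb x hx, hact a ha _ (hs.norm b hb x hx)]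
    congr 1
    group
  have act_Q : ∀ {a : G}, a ∈ Q → ∀ v, act a v = v := by
    intro a ha v
    obtain ⟨x, hx, rfl⟩ := hL.surj v
    rw [hact a (hs.comm_x a ha) x hx, hL.mul _ (Q.mul_mem ha hx) _ (Q.inv_mem ha), hL.mul a ha x hx,
      hL.inv ha]
    abel
  have π_one : π 1 = 1 := (h.π_ker 1 (by simp)).mpr Q.one_mem
  have act_eq : ∀ a b, a * z = z * a → b * z = z * b → π a = π b → ∀ v, act a v = act b v := by
    intro a b ha hb he v
    have h1 : π (a⁻¹ * b) = 1 := by
      have h2 := h.π_mul a (a⁻¹ * b) ha (czm (czi ha) hb)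
      rw [mul_inv_cancel_left, ← he] at h2
      exact mul_left_cancel (h2.symm.trans (mul_one _).symm)
    have h3 := act_mul _ _ ha (czm (czi ha) hb) v
    rw [mul_inv_cancel_left, act_Q ((h.π_ker _ (czm (czi ha) hb)).mp h1)] at h3
    exact h3.symm
  have act_q : ∀ a, a * z = z * a → ∀ v, q (act a v) = q v := by
    intro a ha v
    obtain ⟨x, hx, rfl⟩ := hL.surj v
    rw [hact a ha x hx, hq x hx, hq _ (hs.norm a ha x hx),
      show a * x * a⁻¹ * (a * x * a⁻¹) = a * (x * x) * a⁻¹ by group, hs.central_zp_mul' ha (hs.sq hx)]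
  obtain ⟨ac, hac, hacp⟩ := h.π_range cyc diag_facts.1 diag_facts.2.1
  have c3 : ∀ v, act ac (act ac (act ac v)) = v := by
    intro v
    rw [← act_mul _ _ hac hac, ← act_mul _ _ (czm hac hac) hac,
      act_eq _ 1 (czm (czm hac hac) hac) (by simp) (by
        rw [π_one, h.π_mul _ _ (czm hac hac) hac, h.π_mul _ _ hac hac, hacp, mul_assoc]
        exact diag_facts.2.2.1)]
    exact act_one v
  have c2 : ∀ v, act ac (act ac v) = v + act ac v := by
    intro v
    set s := v + act ac v + act ac (act ac v) with hsd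
    have hfix : act ac s = s := by
      rw [hsd, map_add, map_add, c3]; abel
    obtain ⟨y, hy, hys⟩ := hL.surj s
    rw [← hys, hact ac hac y hy] at hfix
    have h0 : s = 0 := by
      rw [← hys, hL.ker y hy]
      exact hs.pair (hf ac hac hacp y hy
        ((hL.eq_iff hs hy (hs.norm ac hac y hy)).mp hfix.symm))
    have h2 := eq_neg_of_add_eq_zero_right (hsd.symm.trans h0)
    rw [h2]
    exact neg_eq_of_add_eq_zero_left (hL.two hs _)
  have hl : ∀ g : Perm (Fin 6), ∃ a, a * z = z * a ∧ (Perm.sign g = 1 → π a = (1, g)) := by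
    intro g
    by_cases hg : Perm.sign g = 1
    · obtain ⟨a, ha, hp⟩ := h.π_range (1, g) (map_one _) hg
      exact ⟨a, ha, fun _ => hp⟩
    · exact ⟨1, by simp, fun e => absurd e hg⟩
  choose l hlz hlp using hl
  refine ⟨V, inferInstance, L, q, B, act, act ac, fun g => act (l g),
    { lin := hL
      q_eq := hq
      B_eq := hB
      act_spec := hact
      act_one := act_one
      act_mul := act_mul
      act_eq := act_eq
      act_q := act_q
      c_eq := fun a ha hp v => act_eq a ac ha hac (by rw [hp, hacp]) v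
      R_eq := fun g hg a ha hp v => act_eq a (l g) ha (hlz g) (by rw [hp, hlp g hg]) v
      space :=
        { two := hL.two hs
          card := hV
          q_add := qadd
          B_add := Badd
          nondeg := nd
          c_two := c2
          q_c := act_q ac hac
          R_one := fun x => by
            rw [act_eq (l 1) 1 (hlz 1) (by simp) (by rw [hlp 1 (map_one _), π_one]; rfl), act_one]
          R_mul := fun g k hg hk x => by
            have hgk : Perm.sign (g * k) = 1 := by rw [map_mul, hg, hk, one_mul]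
            rw [← act_mul _ _ (hlz g) (hlz k)]
            refine act_eq _ _ (hlz _) (czm (hlz g) (hlz k)) ?_ x
            rw [hlp _ hgk, h.π_mul _ _ (hlz g) (hlz k), hlp g hg, hlp k hk]
            simp
          R_c := fun g hg x => by
            rw [← act_mul _ _ (hlz g) hac, ← act_mul _ _ hac (hlz g)]
            refine act_eq _ _ (czm (hlz g) hac) (czm hac (hlz g)) ?_ x
            rw [h.π_mul _ _ (hlz g) hac, h.π_mul _ _ hac (hlz g), hlp g hg, hacp]
            simp [cyc]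
          q_R := fun g _ => act_q (l g) (hlz g)
          faithful := fun g hg hx => by
            have hm : l g ∈ Q := hs.mem_of_disp (hlz g) fun y hy =>
              (hL.eq_iff hs hy (hs.norm _ (hlz g) y hy)).mp (by rw [← hact _ (hlz g) y hy, hx])
            have h1 := (h.π_ker _ (hlz g)).mpr hm
            rw [hlp g hg] at h1
            exact congrArg Prod.snd h1 } }⟩

/-- `x` is fixed modulo `⟨z⟩` by the lift of `g`. -/
def FixMod (z : G) (π : G → P36) (x : G) (g : Perm (Fin 6)) : Prop :=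
  ∀ a : G, a * z = z * a → π a = (1, g) → x⁻¹ * (a * x * a⁻¹) ∈ Subgroup.zpowers z

theorem exists_fixMod [Finite G] (h : Base z Q π) (hf : Fpf z Q π) :
    ∃ x ∈ Q, x ∉ Subgroup.zpowers z ∧
      ((∀ g ∈ [a1, a2, tt, ea], FixMod z π x g) ∨ ∀ g ∈ stabList', FixMod z π x g) := by
  obtain ⟨V, _, L, q, B, act, c, R, S⟩ := exists_setup h hf
  have key : ∀ v : V, v ≠ 0 → ∃ x ∈ Q, x ∉ Subgroup.zpowers z ∧
      ∀ g, Perm.sign g = 1 → R g v = v → FixMod z π x g := by
    intro v hv0
    obtain ⟨x, hx, rfl⟩ := S.lin.surj v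
    refine ⟨x, hx, fun hm => hv0 ((S.lin.ker x hx).2 ((H18.mem_zpowers_iff_pair h.sing.xx x).1 hm)),
      fun g hg hfix a ha hp => ?_⟩
    refine (S.lin.eq_iff h.sing hx (h.sing.norm a ha x hx)).1 ?_
    rw [← S.act_spec a ha x hx, S.R_eq g hg a ha hp, hfix]
  rcases S.space.exists_fixed with ⟨v, hv0, hv⟩ | ⟨v, hv0, hv⟩
  · obtain ⟨x, hx, hxz, hk⟩ := key v hv0
    exact ⟨x, hx, hxz, Or.inl fun g hg => hk g (sign_gens g (by simp at hg ⊢; tauto)) (hv g hg)⟩
  · obtain ⟨x, hx, hxz, hk⟩ := key v hv0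
    refine ⟨x, hx, hxz, Or.inr fun g hg => ?_⟩
    obtain ⟨h1, h2⟩ := S.space.fix_words
      (fun k hk' => ⟨sign_gens k (by simp at hk' ⊢; tauto), hv k hk'⟩) g hg
    exact hk g h2 h1

theorem tensor_of_fixMod [Finite G] (h : Base z Q π) (hf : Fpf z Q π)
    (hdiag : ∀ p : P36, Perm.sign p.1 = Perm.sign p.2 → ∃ a : G, a * z = z * a ∧ π a = p)
    {x₀ : G} (hx₀ : x₀ ∈ Q) (hx₀z : x₀ ∉ Subgroup.zpowers z)
    (hfix : ∀ g ∈ [a1, a2, tt, ea], FixMod z π x₀ g) : ∃ φ, Tensor z Q π φ := by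
  classical
  obtain ⟨V, _, L, q, B, act, c, R, S⟩ := exists_setup h hf
  have hA := S.space
  have hs := h.sing
  have czm : ∀ {a b : G}, a * z = z * a → b * z = z * b → a * b * z = z * (a * b) := fun ha hb => by
    rw [mul_assoc, hb, ← mul_assoc, ha, mul_assoc]
  have hmul : ∀ {a b a' b' : G}, a * z = z * a → b * z = z * b → a' * z = z * a' → b' * z = z * b' →
      π a * π b = π a' * π b' → ∀ v, act a (act b v) = act a' (act b' v) := by
    intro a b a' b' ha hb ha' hb' he v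
    rw [← S.act_mul a b ha hb, ← S.act_mul a' b' ha' hb']
    exact S.act_eq _ _ (czm ha hb) (czm ha' hb') (by rw [h.π_mul _ _ ha hb, h.π_mul _ _ ha' hb', he]) v
  obtain ⟨ac, hac, hacp⟩ := h.π_range cyc diag_facts.1 diag_facts.2.1
  obtain ⟨as, has, hasp⟩ := hdiag ((swap 1 2, swap 0 1) : P36) (by decide +kernel)
  have π_one : π 1 = 1 := (h.π_ker 1 (by simp)).mpr Q.one_mem
  have twist : ∀ {a : G}, a * z = z * a → (π a).2 = swap 0 1 →
      ∀ g, Perm.sign g = 1 → ∀ y, act a (R g y) = R (swap 0 1 * g * swap 0 1) (act a y) := by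
    intro a ha hp g hg y
    obtain ⟨b, hb, hbp⟩ := h.π_range (1, g) (map_one _) hg
    have hg' : Perm.sign (swap 0 1 * g * swap 0 1 : Perm (Fin 6)) = 1 := by
      rw [map_mul, map_mul, hg, mul_one, ← map_mul, swap_mul_self, map_one]
    obtain ⟨b', hb', hbp'⟩ := h.π_range (1, swap 0 1 * g * swap 0 1) (map_one _) hg'
    rw [← S.R_eq g hg b hb hbp, ← S.R_eq _ hg' b' hb' hbp']
    refine hmul ha hb hb' ha ?_ y
    rw [hbp, hbp']
    refine Prod.ext (by simp) ?_
    show (π a).2 * g = swap 0 1 * g * swap 0 1 * (π a).2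
    rw [hp, mul_assoc _ (swap 0 1) (swap 0 1), swap_mul_self, mul_one]
  have invol : ∀ {a : G}, a * z = z * a → π a * π a = 1 → ∀ y, act a (act a y) = y := by
    intro a ha hp y
    rw [hmul ha ha (a' := 1) (b' := 1) (by simp) (by simp) (by rw [hp, π_one, one_mul]),
      S.act_one, S.act_one]
  have sR := twist has (by rw [hasp])
  have ss := invol has (by rw [hasp]; exact diag_facts.2.2.2.1)
  have sc : ∀ y, act as (c y) = c (c (act as y)) := by
    intro y
    rw [← S.c_eq ac hac hacp, ← S.c_eq ac hac hacp, ← S.c_eq ac hac hacp,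
      ← S.act_mul ac ac hac hac]
    refine hmul has hac (czm hac hac) has ?_ y
    rw [h.π_mul _ _ hac hac, hacp, hasp, mul_assoc]
    exact diag_facts.2.2.2.2.1
  set v₀ := L x₀ with hv₀
  have hv₀0 : v₀ ≠ 0 := fun e =>
    hx₀z ((H18.mem_zpowers_iff_pair hs.xx x₀).2 ((S.lin.ker x₀ hx₀).1 e))
  have hv₀f : ∀ g ∈ [a1, a2, tt, ea], R g v₀ = v₀ := by
    intro g hg
    have hgs : Perm.sign g = 1 := sign_gens g (by simp at hg ⊢; tauto)
    obtain ⟨a, ha, hp⟩ := h.π_range (1, g) (map_one _) hgs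
    rw [← S.R_eq g hgs a ha hp, hv₀, S.act_spec a ha x₀ hx₀]
    exact ((S.lin.eq_iff hs hx₀ (hs.norm a ha x₀ hx₀)).2 (hfix g hg a ha hp)).symm
  -- make the vector fixed by the involution too
  obtain ⟨v, hv0, hvf, hvs⟩ : ∃ v, v ≠ 0 ∧ (∀ g ∈ [a1, a2, tt, ea], R g v = v) ∧ act as v = v := by
    obtain ⟨Ψ, -, -, hΨv, hΨc, hΨR⟩ := hA.exists_coords hv₀f hv₀0
    have hc0 : ∀ {y : V}, y ≠ 0 → c y ≠ 0 := fun {y} hy e => hy (by
      rw [← hA.c_three y, e, map_zero, map_zero])
    have hcf : ∀ {y : V}, (∀ g ∈ [a1, a2, tt, ea], R g y = y) →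
        ∀ g ∈ [a1, a2, tt, ea], R g (c y) = c y := fun hy g hg => by
      rw [hA.R_c g (sign_gens g (by simp at hg ⊢; tauto)), hy g hg]
    have hsv0 : act as v₀ ≠ 0 := fun e => hv₀0 (by rw [← ss v₀, e, map_zero])
    rcases Act.fixed_cases hΨv (fun y => by rw [hΨc, vAct_cyc]) hΨR
      (Act.fix_image hA hv₀f _ sR) hsv0 with e | e | e
    · exact ⟨v₀, hv₀0, hv₀f, e⟩
    · exact ⟨c (c v₀), hc0 (hc0 hv₀0), hcf (hcf hv₀f), by rw [sc, sc, e, hA.c_three]⟩
    · exact ⟨c v₀, hc0 hv₀0, hcf hv₀f, by rw [sc, e, hA.c_three]⟩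
  obtain ⟨Φ, Φq, ΦB, Φv, Φc', ΦR⟩ := hA.exists_coords hvf hv0
  have Φc : ∀ y, Φ (c y) = vAct cyc (Φ y) := fun y => by rw [Φc', vAct_cyc]
  let P : P36 → Prop := fun p => ∀ a : G, a * z = z * a → π a = p → ∀ y, Φ (act a y) = vAct p (Φ y)
  have P1 : P 1 := fun a ha hp y => by
    rw [S.act_eq a 1 ha (by simp) (by rw [hp, π_one]), S.act_one, vAct_one]
  have Pc : P cyc := fun a ha hp y => by rw [S.c_eq a ha hp, Φc]
  have PR : ∀ g, Perm.sign g = 1 → P (1, g) := fun g hg a ha hp y => by rw [S.R_eq g hg a ha hp, ΦR g hg]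
  have Pm : ∀ (p r : P36) (b d : G), b * z = z * b → d * z = z * d → π b = p → π d = r →
      P p → P r → P (p * r) := by
    intro p r b d hb hd hbp hdp hP hR a ha hp y
    rw [S.act_eq a (b * d) ha (czm hb hd) (by rw [hp, h.π_mul _ _ hb hd, hbp, hdp]),
      S.act_mul b d hb hd, hP b hb hbp, hR d hd hdp, vAct_mul]
  have Peven : ∀ p : P36, Perm.sign p.1 = 1 → Perm.sign p.2 = 1 → P p := by
    intro p h1 h2
    obtain ⟨b, hb, hbp⟩ := h.π_range (p.1, 1) h1 (map_one _)
    obtain ⟨d, hd, hdp⟩ := h.π_range (1, p.2) (map_one _) h2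
    have Pf : P (p.1, 1) := by
      rcases even3 p.1 h1 with e | e | e <;> rw [e]
      · exact P1
      · exact Pc
      · exact Pm _ _ ac ac hac hac hacp hacp Pc Pc
    have := Pm _ _ b d hb hd hbp hdp Pf (PR p.2 h2)
    rwa [show ((p.1, 1) : P36) * (1, p.2) = p by simp] at this
  have Ps : P (swap 1 2, swap 0 1) := by
    intro a ha hp y
    rw [S.act_eq a as ha has (by rw [hp, hasp])]
    refine Act.intertwine Φv Φc ΦR (act as) (c.comp c) _ (cyc * cyc) rfl hvs ?_ ?_ sc ?_ sR y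
    · rw [← Φv]
      show vAct ((swap 1 2, swap 0 1) : P36) (Φ v) = Φ v
      rw [Φv]
      decide +kernel
    · intro w
      rw [AddMonoidHom.comp_apply, Φc, Φc, vAct_mul]
    · rw [mul_assoc]; exact diag_facts.2.2.2.2.1
  have Peq : ∀ p : P36, Perm.sign p.1 = Perm.sign p.2 → P p := by
    intro p he
    rcases Int.units_eq_one_or (Perm.sign p.1) with h1 | h1
    · exact Peven p h1 (he ▸ h1)
    · have h2 : Perm.sign p.2 = -1 := he ▸ h1
      set r : P36 := p * (swap 1 2, swap 0 1)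
      have r1 : Perm.sign r.1 = 1 := by
        show Perm.sign (p.1 * swap 1 2) = 1
        rw [map_mul, h1, Perm.sign_swap (by decide)]; rfl
      have r2 : Perm.sign r.2 = 1 := by
        show Perm.sign (p.2 * swap 0 1) = 1
        rw [map_mul, h2, Perm.sign_swap (by decide)]; rfl
      obtain ⟨b, hb, hbp⟩ := h.π_range r r1 r2
      have := Pm _ _ b as hb has hbp hasp (Peven r r1 r2) Ps
      rwa [mul_assoc, diag_facts.2.2.2.1, mul_one] at this
  have hall : ∀ a : G, a * z = z * a → ∀ y, Φ (act a y) = vAct (π a) (Φ y) := by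
    intro a ha
    by_cases he : Perm.sign (π a).1 = Perm.sign (π a).2
    · exact Peq _ he a ha rfl
    set r : P36 := π a * (1, swap 0 1) with hr
    have re : Perm.sign r.1 = Perm.sign r.2 := by
      show Perm.sign ((π a).1 * 1) = Perm.sign ((π a).2 * swap 0 1)
      rw [mul_one, map_mul, Perm.sign_swap (by decide)]
      rcases Int.units_eq_one_or (Perm.sign (π a).1) with h1 | h1 <;>
        rcases Int.units_eq_one_or (Perm.sign (π a).2) with h2 | h2 <;>
          simp_all
    obtain ⟨b, hb, hbp⟩ := hdiag r re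
    have hai : a⁻¹ * z = z * a⁻¹ := by
      rw [inv_mul_eq_iff_eq_mul, ← mul_assoc, ha, mul_inv_cancel_right]
    have hd : a⁻¹ * b * z = z * (a⁻¹ * b) := czm hai hb
    have hdp : π (a⁻¹ * b) = (1, swap 0 1) := by
      have h1 := h.π_mul a (a⁻¹ * b) ha hd
      rw [mul_inv_cancel_left, hbp, hr] at h1
      exact (mul_left_cancel h1).symm
    have tR := twist hd (by rw [hdp])
    have ttv := invol hd (by rw [hdp]; exact diag_facts.2.2.2.2.2.1)
    have tc : ∀ y, act (a⁻¹ * b) (c y) = c (act (a⁻¹ * b) y) := fun y => by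
      rw [← S.c_eq ac hac hacp, ← S.c_eq ac hac hacp]
      exact hmul hd hac hac hd (by rw [hacp, hdp]; exact diag_facts.2.2.2.2.2.2) y
    have tv : act (a⁻¹ * b) v = v := by
      have t0 : act (a⁻¹ * b) v ≠ 0 := fun e => hv0 (by rw [← ttv v, e, map_zero])
      rcases Act.fixed_cases Φv Φc ΦR (Act.fix_image hA hvf _ tR) t0 with e | e | e
      · exact e
      · have e1 := ttv v
        rw [e, tc, e] at e1
        exact absurd (hA.c_fix (by
          have e2 := congrArg c e1
          rw [hA.c_three] at e2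
          exact e2.symm)) hv0
      · have e1 := ttv v
        rw [e, tc, tc, e, hA.c_three] at e1
        exact absurd (hA.c_fix e1) hv0
    have Pt : P (1, swap 0 1) := by
      intro a' ha' hp y
      rw [S.act_eq a' (a⁻¹ * b) ha' hd (by rw [hp, hdp])]
      refine Act.intertwine Φv Φc ΦR _ c _ cyc rfl tv ?_ Φc tc diag_facts.2.2.2.2.2.2 tR y
      rw [vAct_snd, wAct_swap_w45, wAct_zero]
    have := Pm _ _ b (a⁻¹ * b) hb hd hbp hdp (Peq r re) Pt
    rw [hr, mul_assoc, diag_facts.2.2.2.2.2.1, mul_one] at this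
    exact this a ha rfl
  exact ⟨fun a => Φ (L a),
    { toBase := h
      φ_mul := fun a ha b hb => by rw [S.lin.mul a ha b hb, map_add]
      φ_ker := fun a ha => by rw [map_eq_zero_iff Φ Φ.injective, S.lin.ker a ha]
      φ_surj := fun w => by
        obtain ⟨a, ha, hv⟩ := S.lin.surj (Φ.symm w)
        exact ⟨a, ha, by rw [hv, Φ.apply_symm_apply]⟩
      φ_sq := fun a ha => by rw [← Φq, S.q_eq a ha]; exact zb_bit (hs.pair (hs.sq ha)) hs.xne
      φ_comm := fun a ha b hb => by
        rw [← ΦB, S.B_eq a ha b hb]; exact zb_bit (hs.pair (hs.comm ha hb)) hs.xne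
      φ_act := fun a ha x hx => by rw [← S.act_spec a ha x hx]; exact hall a ha (L x) }⟩

end Diag

open Diag in
/-- In the fixed-point-free case, a diagonal part of `S₃ × S₆` already determines the module. -/
theorem exists_tensor_diag {G : Type*} [Group G] [Finite G] {z : G} {Q : Subgroup G} {π : G → P36}
    (h : Base z Q π) (hf : Fpf z Q π)
    (hdiag : ∀ p : P36, Equiv.Perm.sign p.1 = Equiv.Perm.sign p.2 →
      ∃ a : G, a * z = z * a ∧ π a = p) :
    ∃ π' φ, Tensor z Q π' φ := by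
  obtain ⟨x, hx, hxz, hfix | hfix⟩ := exists_fixMod h hf
  · exact ⟨π, tensor_of_fixMod h hf hdiag hx hxz hfix⟩
  let π' : G → P36 := fun a => ((π a).1, thetaDuad.symm (π a).2)
  have hsgn : ∀ g, Equiv.Perm.sign (thetaDuad.symm g) = Equiv.Perm.sign g := fun g => by
    conv_rhs => rw [← thetaDuad.apply_symm_apply g, sign_thetaDuad]
  have hpre : ∀ {a : G} {s : Equiv.Perm (Fin 3)} {g : Equiv.Perm (Fin 6)},
      π' a = (s, g) → π a = (s, thetaDuad g) := fun {a s g} e =>
    Prod.ext (show (π a).1 = s from congrArg Prod.fst e)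
      (thetaDuad.symm_apply_eq.1 (show thetaDuad.symm (π a).2 = g from congrArg Prod.snd e))
  have hlift : ∀ {a : G} {p : P36}, π a = (p.1, thetaDuad p.2) → π' a = p := fun {a p} e =>
    Prod.ext (by simp [π', e]) (by simp [π', e])
  have h' : Base z Q π' :=
    { sing := h.sing
      core := h.core
      card := h.card
      π_mul := fun a b ha hb => by
        simp only [π', h.π_mul a b ha hb, Prod.fst_mul, Prod.snd_mul, map_mul, Prod.mk_mul_mk]
      π_ker := fun a ha => by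
        rw [← h.π_ker a ha]
        refine ⟨fun e => ?_, fun e => by simp [π', e]⟩
        rw [hpre (show π' a = (1, 1) from e), map_one]; rfl
      π_range := fun p h1 h2 => by
        obtain ⟨a, ha, hp⟩ := h.π_range (p.1, thetaDuad p.2) h1 (by rw [sign_thetaDuad]; exact h2)
        exact ⟨a, ha, hlift hp⟩ }
  have hf' : Fpf z Q π' := fun a ha hp => hf a ha (by rw [hpre hp, map_one]; rfl)
  have hdiag' : ∀ p : P36, Equiv.Perm.sign p.1 = Equiv.Perm.sign p.2 →
      ∃ a : G, a * z = z * a ∧ π' a = p := fun p hp => by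
    obtain ⟨a, ha, ha'⟩ := hdiag (p.1, thetaDuad p.2) (by rw [sign_thetaDuad]; exact hp)
    exact ⟨a, ha, hlift ha'⟩
  refine ⟨π', tensor_of_fixMod h' hf' hdiag' hx hxz fun g hg a ha hp => ?_⟩
  refine hfix (thetaDuad g) (mem_stabList' _ ?_ ((thetaDuad_commute_iff g).2 (gens_duad g hg))) a ha
    (hpre hp)
  rw [sign_thetaDuad]
  exact sign_gens g (by simp at hg ⊢; tauto)

end Cfsg.Agent.H70.CHZ
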